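import Cfsg.Agent.MQ.Co.Two
import Cfsg.Agent.LV.Cl.Conj_m3
import Mathlib.Algebra.Order.Antidiag.Finsupp
import Mathlib.Algebra.MvPolynomial.Basic
import Cfsg.Agent.Prune
set_option linter.all false
prune_inst 0x7f00000000000000000000000000000000000000000000000000000000000000000000000000000000000000000000000000000000000000000000000000000000000000000000000000000000000000003fffffffffffffffffffffffffffbeffbdffffffff
open scoped Cfsg.Agent.FastGrp

-- part: MO/J/Tup
section
/-!
# MO-J: alternating functions of tuples of beads, signed cycle types, Murnaghan-Nakayama (helper90)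

* `pr_alt_left`, `pr_alt_right`, `pr_comm`, `YM_alt`; `tup_mem`, `tup_lt`, `image_tup`, `tup_image`;
* `alt_map` : the sign of a re-enumeration; `alt_move` : the moves of one bead;
* `YT` : the functions of all kinds on tuples; `sty_step`, `sty_of_hasTy`;
* `bMN : BMN`.
-/

set_option autoImplicit false
set_option linter.unusedSectionVars false

namespace Cfsg.Agent.MO.J.MN

open Equiv Equiv.Perm Finset Cfsg.Agent.H614 Cfsg.Agent.LV.Cl Cfsg.Agent.LV.Cl.Cj

theorem ty_congr {α β : Type} [Fintype α] [DecidableEq α] [Fintype β] [DecidableEq β] (e : α ≃ β) {g : Perm α} {g' : Perm β}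
    (h : ∀ x, e (g x) = g' (e x)) : ty g = ty g' := by
  have h1 : g' = g.extendDomain (e.trans (Equiv.subtypeUnivEquiv (p := fun _ => True) fun _ => trivial).symm) := by
    ext y
    obtain ⟨x, rfl⟩ := e.surjective y
    exact (h x).symm.trans (extendDomain_apply_image g (e.trans (Equiv.subtypeUnivEquiv fun _ => trivial).symm) x).symm
  rw [ty_eq, ty_eq, h1, cycleType_extendDomain, Fintype.card_congr e]

variable {n : ℕ} {π : Perm (Fin n)} {A : Finset (Fin n)} {x : Fin n}

theorem tyO_empty (π : Perm (Fin n)) : tyO π ∅ = 0 := by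
  delta tyO
  split_ifs
  · exact (congrArg ty (Subsingleton.elim _ 1)).trans (ty_one.trans (by simp))
  · rfl

theorem tyO_step (h : Stab A π) (hx : x ∈ A) : tyO π A = #(cyc π x) ::ₘ tyO π (A \ cyc π x) := by
  delta tyO
  rw [dif_pos h, dif_pos (stab_sdiff h (stab_cyc π x)), ty_step _ ⟨x, hx⟩]
  (with_reducible congr 1)
  · exact card_bij (fun y _ => y.1) (fun y hy => mem_cyc.2 (sameCycle_subtypePerm.1 (mem_filter.1 hy).2))
      (fun _ _ _ _ => Subtype.ext) fun y hy =>
      ⟨⟨y, cyc_subset h hx hy⟩, mem_filter.2 ⟨mem_univ _, sameCycle_subtypePerm.2 (mem_cyc.1 hy)⟩, rfl⟩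
  · exact ty_congr ⟨fun y => ⟨y.1.1, mem_sdiff.2 ⟨y.1.2, fun h1 => y.2 (sameCycle_subtypePerm.2 (mem_cyc.1 h1))⟩⟩,
      fun y => ⟨⟨y.1, (mem_sdiff.1 y.2).1⟩, fun h1 => (mem_sdiff.1 y.2).2 (mem_cyc.2 (sameCycle_subtypePerm.1 h1))⟩,
      fun _ => rfl, fun _ => rfl⟩ fun _ => rfl

end Cfsg.Agent.MO.J.MN

namespace Cfsg.Agent.MO.J

open Equiv Finset Cfsg.Agent.H614
open Cfsg.Agent.LV.Cl (SG On Stab cyc sw tt sgn HasTy tyO)
open Cfsg.Agent.LV.Cl.Cj

section Alt

variable {M : ℕ} {Ω : Type} {V : Type} [AddCommGroup V]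

theorem AltT.swap {Φ : (Fin M → Ω) → V} (h : AltT Φ) (τ : Fin M → Ω) {i j : Fin M} (hij : i ≠ j) :
    Φ (τ ∘ swap i j) = -Φ τ := by
  rw [h]; simp [sg, Perm.sign_swap hij]

theorem AltT.zero [NoZeroSMulDivisors ℤ V] {Φ : (Fin M → Ω) → V} (h : AltT Φ) {τ : Fin M → Ω}
    (hτ : ¬ Function.Injective τ) : Φ τ = 0 := by
  obtain ⟨i, j, e, hij⟩ := Function.not_injective_iff.1 hτ
  have h1 : τ ∘ Equiv.swap i j = τ := funext fun k => apply_swap_eq_self e k
  have h2 := h.swap τ hij
  rw [h1, eq_neg_iff_add_eq_zero, ← two_zsmul] at h2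
  exact (smul_eq_zero.1 h2).resolve_left two_ne_zero

theorem AltT.inj {Φ : (Fin M → Ω) → ℤ} (h : AltT Φ) {τ : Fin M → Ω} (hτ : Φ τ ≠ 0) : Function.Injective τ :=
  by_contra fun e => hτ (h.zero e)

theorem update_comp (τ : Fin M → Ω) (σ : Perm (Fin M)) (j : Fin M) (b : Ω) :
    Function.update (τ ∘ σ) j b = Function.update τ (σ j) b ∘ σ := (Function.update_comp_eq_of_injective τ σ.injective j b).symm

/-- the sum over the moves of one bead is alternating -/
theorem AltT.move {Φ : (Fin M → Ω) → ℤ} (h : AltT Φ) (w : Ω → ℤ) (f : Ω → Ω) :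
    AltT fun τ : Fin M → Ω => ∑ j, w (τ j) * Φ (Function.update τ j (f (τ j))) := fun σ τ => by
  rw [smul_sum, ← Equiv.sum_comp σ fun j => sg σ • (w (τ j) * Φ (Function.update τ j (f (τ j))))]
  refine sum_congr rfl fun j _ => ?_
  rw [update_comp, h, smul_eq_mul, smul_eq_mul, mul_left_comm]
  rfl

theorem AltT.move' {Φ : (Fin M → Ω) → ℤ} (h : AltT Φ) (p : Ω → Prop) [DecidablePred p] (f : Ω → Ω) :
    AltT fun τ : Fin M → Ω => ∑ j, if p (τ j) then Φ (Function.update τ j (f (τ j))) else 0 := by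
  simpa only [ite_mul, one_mul, zero_mul] using h.move (fun a => if p a then 1 else 0) f

variable [DecidableEq Ω]

theorem pr_alt_right (α : Fin M → Ω) : AltT (pr α) := fun σ γ => by
  unfold pr
  rw [smul_sum, ← Equiv.sum_comp (Equiv.mulLeft σ) fun τ => sg σ • (if α = γ ∘ τ then sg τ else 0)]
  refine sum_congr rfl fun τ _ => ?_
  rw [smul_ite, smul_zero]
  refine if_congr Iff.rfl ?_ rfl
  rw [Equiv.coe_mulLeft, sg_mul, smul_eq_mul, ← mul_assoc, sg_mul_self, one_mul]

theorem pr_comm (α γ : Fin M → Ω) : pr α γ = pr γ α := by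
  unfold pr
  rw [← Equiv.sum_comp (Equiv.inv (Perm (Fin M)))]
  refine sum_congr rfl fun σ _ => if_congr ⟨?_, ?_⟩ (sg_inv σ) rfl <;> rintro rfl <;> funext i <;> simp

theorem pr_alt_left (γ : Fin M → Ω) : AltT fun α => pr α γ := fun σ α => by
  simp only [pr_comm _ γ]
  exact pr_alt_right γ σ α

theorem pr_self {α : Fin M → Ω} (h : Function.Injective α) : pr α α = 1 := by
  rw [pr, sum_eq_single 1]
  · simp
  · exact fun σ _ hσ => if_neg fun e => hσ (Equiv.ext fun i => (h (congrFun e i)).symm)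
  · simp only [_root_.Finset.mem_univ, _root_.not_true_eq_false, _root_.Equiv.Perm.coe_one, _root_.CompTriple.comp_eq, ↓ _root_.reduceIte, _root_.Units.ne_zero, _root_.imp_self]

theorem pr_ne {α γ : Fin M → Ω} (h : pr α γ ≠ 0) : ∃ σ : Perm (Fin M), α = γ ∘ σ := by
  obtain ⟨σ, -, hσ⟩ := exists_ne_zero_of_sum_ne_zero h
  exact ⟨σ, by_contra fun e => hσ (if_neg e)⟩

theorem image_comp (τ : Fin M → Ω) (σ : Perm (Fin M)) : univ.image (τ ∘ σ) = univ.image τ := by
  rw [← image_image, image_univ_equiv]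

theorem pr_image {α γ : Fin M → Ω} (h : pr α γ ≠ 0) : univ.image α = univ.image γ := by
  obtain ⟨σ, rfl⟩ := pr_ne h
  exact image_comp γ σ

theorem pr_map {Ω' : Type} [DecidableEq Ω'] {f : Ω → Ω'} (hf : Function.Injective f) (α γ : Fin M → Ω) :
    pr (f ∘ α) (f ∘ γ) = pr α γ :=
  sum_congr rfl fun σ _ => if_congr (by rw [Function.comp_assoc]; exact hf.comp_left.eq_iff) rfl rfl

theorem exists_perm {α γ : Fin M → Ω} (hα : Function.Injective α) (h : ∀ i, ∃ j, γ j = α i) :
    ∃ σ : Perm (Fin M), α = γ ∘ σ := by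
  choose f hf using h
  have h1 : Function.Injective f := fun i j e => hα (by rw [← hf, ← hf, e])
  exact ⟨Equiv.ofBijective f (Finite.injective_iff_bijective.1 h1), funext fun i => (hf i).symm⟩

end Alt

variable {M : ℕ}

theorem vc_alt : AltT (vc (M := M)) := fun σ τ => by
  unfold vc
  rw [show pr _ _ = _ from pr_alt_left (v0 M) σ τ, show pr _ _ = _ from pr_alt_left (v1 M) σ τ, smul_add, smul_ite, smul_zero]

theorem YM_alt (s : Multiset Cy) : AltT (YM (M := M) s) := by
  induction s using Multiset.induction_on with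
  | empty => exact vc_alt
  | cons c s ih =>
    rw [show YM (c ::ₘ s) = _ from funext (YM_cons c s)]
    exact ih.move' (fun a => c.1 ≤ a.1) (mv c)

/-! ### the tuple of a label -/

theorem ky_inj : Function.Injective ky := fun a b h => by
  have h2 : (a.2, a.1) = (b.2, b.1) := toLex.injective h
  exact Prod.ext (congrArg Prod.snd h2) (congrArg Prod.fst h2)

theorem ky_lt {a b : Pt} : ky a < ky b ↔ (a.2 = false ∧ b.2 = true) ∨ (a.2 = b.2 ∧ a.1 < b.1) := by
  rw [ky, ky, Prod.Lex.toLex_lt_toLex, Bool.lt_iff]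

variable {u v : Finset Pt}

theorem tup_eq (h : #u = M) (i : Fin M) : tup M u i = (u.sort Le)[(i : ℕ)]'(by rw [length_sort, h]; exact i.2) :=
  List.getD_eq_getElem _ _ _

theorem tup_mem (h : #u = M) (i : Fin M) : tup M u i ∈ u := by
  rw [tup_eq h, ← mem_sort Le]
  exact List.getElem_mem _

theorem tup_surj (h : #u = M) {a : Pt} (ha : a ∈ u) : ∃ i, tup M u i = a := by
  obtain ⟨i, hi, e⟩ := List.getElem_of_mem ((mem_sort Le).2 ha)
  exact ⟨⟨i, by rwa [length_sort, h] at hi⟩, (tup_eq h _).trans e⟩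

theorem tup_inj (h : #u = M) : Function.Injective (tup M u) := fun i j e => by
  rw [tup_eq h, tup_eq h] at e
  exact Fin.ext ((u.sort_nodup Le).getElem_inj_iff.1 e)

theorem tup_mono (h : #u = M) : StrictMono fun i => ky (tup M u i) := fun i j hij => by
  refine lt_of_le_of_ne ?_ fun e => hij.ne (tup_inj h (ky_inj e))
  show ky _ ≤ ky _
  rw [tup_eq h, tup_eq h]
  exact List.pairwise_iff_getElem.1 (u.pairwise_sort Le) _ _ _ _ hij

theorem tup_lt (h : #u = M) {i j : Fin M} : ky (tup M u i) < ky (tup M u j) ↔ i < j := (tup_mono h).lt_iff_lt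

theorem image_tup (h : #u = M) : univ.image (tup M u) = u := by
  ext a
  simp only [mem_image, mem_univ, true_and]
  exact ⟨fun ⟨i, e⟩ => e ▸ tup_mem h i, tup_surj h⟩

theorem card_image' {τ : Fin M → Pt} (h : Function.Injective τ) : #(univ.image τ) = M := by
  rw [card_image_of_injective _ h, card_univ, Fintype.card_fin]

theorem tup_image {τ : Fin M → Pt} (h : StrictMono fun i => ky (τ i)) : tup M (univ.image τ) = τ := by
  have h1 : Function.Injective τ := fun i j e => h.injective (congrArg ky e)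
  have h2 := (StrictMono.range_inj (tup_mono (card_image' h1)) h).1 (by
    have := congrArg (fun x : Finset Pt => ky '' (x : Set Pt)) (image_tup (card_image' h1))
    simp only [coe_image, coe_univ, Set.image_univ, ← Set.range_comp] at this
    exact this)
  exact funext fun i => ky_inj (congrFun h2 i)

theorem sum_tup {A : Type*} [AddCommMonoid A] (h : #u = M) (f : Pt → A) : ∑ i, f (tup M u i) = ∑ a ∈ u, f a := by
  conv_rhs => rw [← image_tup h, sum_image (tup_inj h).injOn]

theorem pr_tup (hu : #u = M) (hv : #v = M) : pr (tup M u) (tup M v) = if u = v then 1 else 0 := by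
  split_ifs with e
  · rw [e, pr_self (tup_inj hv)]
  · exact by_contra fun h => e (by rw [← image_tup hu, pr_image h, image_tup hv])

/-- the sign of a tuple for a comparison -/
def sgn2 (c : Pt → Pt → ℤ) (τ : Fin M → Pt) : ℤ := ∏ i, ∏ k ∈ Ioi i, c (τ i) (τ k)

theorem sgn2_alt {c : Pt → Pt → ℤ} (hc : ∀ a b, c a b = -c b a) : AltT (sgn2 (M := M) c) := fun σ τ =>
  Perm.prod_Ioi_comp_eq_sign_mul_prod σ (f := fun i k => c (τ i) (τ k)) fun _ _ => hc _ _

theorem sgn2_tup (h : #u = M) (c : Pt → Pt → ℤ) : sgn2 c (tup M u) = ∏ z ∈ u ×ˢ u with ky z.1 < ky z.2, c z.1 z.2 := by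
  rw [sgn2, prod_sigma']
  refine prod_bij (fun z _ => (tup M u z.1, tup M u z.2)) (fun z hz => ?_) (fun z _ z' _ e => ?_) (fun z hz => ?_) fun _ _ => rfl
  · exact mem_filter.2 ⟨mem_product.2 ⟨tup_mem h _, tup_mem h _⟩, (tup_lt h).2 (mem_Ioi.1 (mem_sigma.1 hz).2)⟩
  · obtain ⟨e1, e2⟩ := Prod.ext_iff.1 e
    exact Sigma.ext (tup_inj h e1) (heq_of_eq (tup_inj h e2))
  · obtain ⟨h1, h2⟩ := mem_filter.1 hz
    obtain ⟨i, hi⟩ := tup_surj h (mem_product.1 h1).1
    obtain ⟨k, hk⟩ := tup_surj h (mem_product.1 h1).2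
    exact ⟨⟨i, k⟩, mem_sigma.2 ⟨mem_univ _, mem_Ioi.2 ((tup_lt h).1 (by rwa [hi, hk]))⟩, Prod.ext hi hk⟩

/-- the comparison for a key -/
def cp {K : Type} [LinearOrder K] (k : Pt → K) (a b : Pt) : ℤ := if k a < k b then 1 else if k b < k a then -1 else 0

theorem cp_anti {K : Type} [LinearOrder K] (k : Pt → K) (a b : Pt) : cp k a b = -cp k b a := by
  unfold cp
  rcases lt_trichotomy (k a) (k b) with h | h | h
  · simp [h, h.not_gt]
  · simp [h]
  · simp [h, h.not_gt]

theorem sgn2_ky (h : #u = M) : sgn2 (cp ky) (tup M u) = 1 := by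
  rw [sgn2_tup h]
  exact prod_eq_one fun z hz => if_pos (mem_filter.1 hz).2

theorem alt_eq {V : Type} [AddCommGroup V] {Φ : (Fin M → Pt) → V} (hΦ : AltT Φ) {τ : Fin M → Pt} (h : Function.Injective τ) :
    Φ τ = sgn2 (cp ky) τ • Φ (tup M (univ.image τ)) := by
  obtain ⟨σ, hσ⟩ := exists_perm (γ := tup M (univ.image τ)) h fun i =>
    tup_surj (card_image' h) (mem_image_of_mem _ (mem_univ i))
  have h1 := sgn2_ky (card_image' h)
  generalize tup M (univ.image τ) = t at hσ h1
  rw [hσ, hΦ, sgn2_alt (cp_anti ky), h1, smul_eq_mul, mul_one]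

theorem prod_cp {K : Type} [LinearOrder K] (k : Pt → K) (s : Finset (Pt × Pt)) (h : ∀ z ∈ s, k z.1 ≠ k z.2) :
    ∏ z ∈ s, cp k z.1 z.2 = (-1) ^ #{z ∈ s | k z.2 < k z.1} := by
  rw [← prod_const, prod_filter]
  refine prod_congr rfl fun z hz => ?_
  unfold cp
  rcases lt_or_gt_of_ne (h z hz) with e | e
  · rw [if_pos e, if_neg e.not_gt]
  · rw [if_neg e.not_gt, if_pos e, if_pos e]

theorem sgn2_map {K : Type} [LinearOrder K] (k : Pt → K) (h : #u = M) {f : Pt → Pt} (hf : Set.InjOn (k ∘ f) u) :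
    sgn2 (cp k) (f ∘ tup M u) = (-1) ^ #{z ∈ u ×ˢ u | ky z.1 < ky z.2 ∧ k (f z.2) < k (f z.1)} := by
  rw [← filter_filter]
  refine (sgn2_tup h (cp (k ∘ f))).trans (prod_cp (k ∘ f) _ fun z hz e => ?_)
  obtain ⟨h1, h2⟩ := mem_filter.1 hz
  rw [hf (mem_product.1 h1).1 (mem_product.1 h1).2 e] at h2
  exact lt_irrefl _ h2

/-- **the sign of a re-enumeration** -/
theorem alt_map {V : Type} [AddCommGroup V] {Φ : (Fin M → Pt) → V} (hΦ : AltT Φ) (h : #u = M) {f : Pt → Pt}
    (hf : Set.InjOn f u) : Φ (f ∘ tup M u) =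
      ((-1 : ℤ) ^ #{z ∈ u ×ˢ u | ky z.1 < ky z.2 ∧ ky (f z.2) < ky (f z.1)}) • Φ (tup M (u.image f)) := by
  rw [alt_eq hΦ (τ := f ∘ tup M u) fun i j e => tup_inj h (hf (tup_mem h i) (tup_mem h j) e), sgn2_map ky h (ky_inj.comp_injOn hf),
    ← image_image, image_tup h]

theorem update_tup (h : #u = M) (j : Fin M) (b : Pt) :
    Function.update (tup M u) j b = (fun x => if x = tup M u j then b else x) ∘ tup M u := by
  funext k
  simp only [Function.update_apply, Function.comp, (tup_inj h).eq_iff]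

theorem card_rp {a b : Pt} (ha : a ∈ u) (hb : b ∉ u.erase a) : #(rp u a b) = #u := by
  rw [rp, card_insert_of_notMem hb, card_erase_add_one ha]

theorem alt_update {Φ : (Fin M → Pt) → ℤ} (hΦ : AltT Φ) (h : #u = M) (j : Fin M) (b : Pt) :
    Φ (Function.update (tup M u) j b) =
      if b ∉ u.erase (tup M u j) then sn u (tup M u j) b * Φ (tup M (rp u (tup M u j) b)) else 0 := by
  have ha := tup_mem h j
  split_ifs with hb
  · obtain ⟨h1, h2⟩ := mem_erase.1 hb
    obtain ⟨k, rfl⟩ := tup_surj h h2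
    have h3 : k ≠ j := fun e => h1 (e ▸ rfl)
    exact hΦ.zero fun e => h3 (e (by rw [Function.update_self, Function.update_of_ne h3]))
  rw [update_tup h]
  generalize tup M u j = a at *
  have h1 : ∀ x ∈ u, x ≠ a → x ≠ b := fun x hx e e' => hb (mem_erase.2 ⟨e' ▸ e, e' ▸ hx⟩)
  rw [alt_map hΦ h fun x hx y hy e => ?_, smul_eq_mul, sn]
  · congr 2
    · symm
      refine card_bij (fun x _ => if ky a < ky x then (a, x) else (x, a)) (fun x hx => ?_) (fun x hx y hy e => ?_) fun z hz => ?_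
      · obtain ⟨h2, h3⟩ := mem_filter.1 hx
        have h4 : x ≠ a := by
          rintro rfl
          simp at h3
        split_ifs with h5 <;> simp only [mem_filter, mem_product, if_neg h4, if_true]
        · exact ⟨⟨ha, h2⟩, h5, (h3.resolve_right fun e => e.2.not_gt h5).2⟩
        · exact ⟨⟨h2, ha⟩, (h3.resolve_left fun e => h5 e.1).symm⟩
      · split_ifs at e with h2 h3 h3 <;> obtain ⟨e1, e2⟩ := Prod.ext_iff.1 e
        · exact e2
        · exact e2.trans e1
        · exact e1.trans e2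
        · exact e1
      · obtain ⟨x, y⟩ := z
        simp only [mem_filter, mem_product] at hz ⊢
        obtain ⟨⟨h2, h3⟩, h4, h5⟩ := hz
        split_ifs at h5 with h6 h7 h7
        · exact absurd h5 (lt_irrefl _)
        · exact ⟨x, ⟨h2, Or.inr ⟨h5, h6 ▸ h4⟩⟩, by rw [if_neg (h6 ▸ h4.not_gt), h6]⟩
        · exact ⟨y, ⟨h3, Or.inl ⟨h7 ▸ h4, h5⟩⟩, by rw [if_pos (h7 ▸ h4), h7]⟩
        · exact absurd h5 h4.not_gt
    · congr 1
      ext x
      simp only [rp, mem_image, mem_insert, mem_erase]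
      refine ⟨?_, ?_⟩
      · rintro ⟨y, hy, rfl⟩
        split_ifs with e
        · exact Or.inl rfl
        · exact Or.inr ⟨e, hy⟩
      · rintro (rfl | ⟨e, hx⟩)
        · exact ⟨a, ha, if_pos rfl⟩
        · exact ⟨x, hx, if_neg e⟩
  · beta_reduce at e
    split_ifs at e with h2 h3 h3
    · rw [h2, h3]
    · exact absurd e.symm (h1 y hy h3)
    · exact absurd e (h1 x hx h2)
    · exact e

/-- **the moves of one bead** -/
theorem alt_move {Φ : (Fin M → Pt) → ℤ} (hΦ : AltT Φ) (h : #u = M) (p : Pt → Prop) [DecidablePred p] (f : Pt → Pt) :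
    ∑ j, (if p (tup M u j) then Φ (Function.update (tup M u) j (f (tup M u j))) else 0) =
      ∑ a ∈ u with p a ∧ f a ∉ u.erase a, sn u a (f a) * Φ (tup M (rp u a (f a))) := by
  rw [sum_filter, ← sum_tup h]
  refine sum_congr rfl fun j _ => ?_
  rw [alt_update hΦ h, ite_and]

theorem sn_step (u : Finset Pt) {x y : ℕ} (h : x = y + 1 ∨ y = x + 1) (b : Bool) : sn u (x, b) (y, b) = 1 := by
  rw [sn, filter_false_of_mem, card_empty, pow_zero]
  rintro ⟨z, d⟩ -
  simp only [ky_lt]
  cases b <;> cases d <;> simp <;> omega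

theorem alt_down {Φ : (Fin M → Pt) → ℤ} (hΦ : AltT Φ) (h : #u = M) :
    ∑ j, (if 0 < (tup M u j).1 then Φ (Function.update (tup M u) j ((tup M u j).1 - 1, (tup M u j).2)) else 0) =
      ∑ a ∈ rem u, Φ (tup M (bx u a)) := by
  rw [alt_move hΦ h (fun a => 0 < a.1) fun a => (a.1 - 1, a.2)]
  refine sum_congr (filter_congr fun a _ => and_congr_right fun ha => ?_) fun a ha => ?_
  · rw [mem_erase, and_iff_right fun e => by have := congrArg Prod.fst e; simp only at this; omega]
  · rw [sn_step u (x := a.1) (by have := (mem_filter.1 ha).2.1; omega), one_mul, bx]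

theorem alt_up {Φ : (Fin M → Pt) → ℤ} (hΦ : AltT Φ) (h : #u = M) :
    ∑ j, Φ (Function.update (tup M u) j ((tup M u j).1 + 1, (tup M u j).2)) = ∑ a ∈ add u, Φ (tup M (ux u a)) := by
  have h1 := alt_move hΦ h (fun _ => True) fun a => (a.1 + 1, a.2)
  simp only [if_true, true_and] at h1
  rw [h1]
  refine sum_congr (filter_congr fun a _ => ?_) fun a _ => ?_
  · rw [mem_erase, and_iff_right fun e => by have := congrArg Prod.fst e; simp only at this; omega]
  · rw [sn_step u (x := a.1) (Or.inr rfl), one_mul, ux]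

/-! ### all kinds -/

/-- the functions on tuples -/
def YT : Kn → Multiset Cy → (Fin M → Pt) → ℤ
  | .A, s, τ => FM (s.map Prod.fst) fun i => ps .A (τ i)
  | .U, s, τ => FM (s.map Prod.fst) fun i => ps .U (τ i)
  | _, s, τ => YM s τ

theorem YK_eq (κ : Kn) (s : Multiset Cy) (u : Finset Pt) : YK κ M s u = YT κ s (tup M u) := by cases κ <;> rfl

theorem YT_alt (κ : Kn) (s : Multiset Cy) : AltT (YT (M := M) κ s) := by
  cases κ
  · exact fun σ τ => FM_alt _ σ fun i => ps .A (τ i)
  · exact fun σ τ => FM_alt _ σ fun i => ps .U (τ i)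
  · exact YM_alt s
  · exact YM_alt s

theorem ps_mk (κ : Kn) (c : Cy) (a : Pt) : ps κ (mk κ c a) = ps κ a - c.1 := by
  cases κ
  · rfl
  · show 2 * ((ps .U a - c.1) / 2) + (decide ((ps .U a - c.1) % 2 = 1)).toNat = _
    generalize ps .U a - c.1 = z
    rcases Nat.mod_two_eq_zero_or_one z with h | h <;> simp [h] <;> omega
  · rfl
  · rfl

theorem YT_cons (κ : Kn) (c : Cy) (s : Multiset Cy) (τ : Fin M → Pt) :
    YT κ (c ::ₘ s) τ = ∑ j, if c.1 ≤ ps κ (τ j) then YT κ s (Function.update τ j (mk κ c (τ j))) else 0 := by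
  have h : ∀ κ j, H614.dn (fun i => ps κ (τ i)) j c.1 = fun i => ps κ (Function.update τ j (mk κ c (τ j)) i) := fun κ j => by
    rw [H614.dn, ← ps_mk]
    exact (Function.comp_update (ps κ) τ j _).symm
  cases κ
  · simp only [YT, Multiset.map_cons, FM_cons, h]
  · simp only [YT, Multiset.map_cons, FM_cons, h]
  · exact YM_cons c s τ
  · exact YM_cons c s τ

theorem YT_box (κ : Kn) (s : Multiset Cy) (τ : Fin M → Pt) :
    YT κ (bc κ ::ₘ s) τ = ∑ j, if 0 < (τ j).1 then YT κ s (Function.update τ j ((τ j).1 - 1, (τ j).2)) else 0 := by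
  rw [YT_cons]
  refine sum_congr rfl fun j _ => ?_
  obtain ⟨x, b⟩ := τ j
  cases κ
  · rfl
  · refine if_ctx_congr (by cases b <;> simp only [ps, bc, _root_.Bool.toNat_false, _root_.add_zero, _root_.Order.lt_two_iff, _root_.zero_le, _root_.le_mul_iff_one_le_right, _root_.Bool.toNat_true, _root_.Nat.reduceLeDiff] <;> omega) (fun h => ?_) fun _ => rfl
    obtain ⟨y, rfl⟩ := Nat.exists_eq_add_one_of_ne_zero h.ne'
    congr 2
    cases b <;> simp only [mk, ps, bc, _root_.Bool.toNat_false, _root_.add_zero, _root_.add_tsub_cancel_right, _root_.Prod.mk.injEq, _root_.decide_eq_false_iff_not, _root_.Nat.mod_two_not_eq_one, _root_.Bool.toNat_true, _root_.Nat.reduceSubDiff, _root_.decide_eq_true_eq] <;> omega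
  · rfl
  · rfl

/-! ### signed cycle types -/

variable {n : ℕ} {T : Finset (Fin n)} {g g' : SG n} {x : Fin n}

theorem sty_empty (g : SG n) : sty ∅ g = 0 := by simp [sty]

theorem sty_step (h : Stab T g.π) (hx : x ∈ T) :
    sty T g = (#(cyc g.π x), ∏ j ∈ cyc g.π x, g.s j) ::ₘ sty (T \ cyc g.π x) g := by
  have h1 : cyc g.π x ∉ (T \ cyc g.π x).image (cyc g.π) := fun e => by
    obtain ⟨y, hy, e⟩ := mem_image.1 e
    exact (mem_sdiff.1 hy).2 (e ▸ self_mem _ y)
  have h2 : T.image (cyc g.π) = insert (cyc g.π x) ((T \ cyc g.π x).image (cyc g.π)) := by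
    ext C
    simp only [mem_image, mem_insert, mem_sdiff]
    refine ⟨fun ⟨y, hy, e⟩ => ?_, ?_⟩
    · by_cases h3 : y ∈ cyc g.π x
      · exact Or.inl (e ▸ cyc_eq h3)
      · exact Or.inr ⟨y, ⟨hy, h3⟩, e⟩
    · rintro (rfl | ⟨y, hy, e⟩)
      · exact ⟨x, hx, rfl⟩
      · exact ⟨y, hy.1, e⟩
  rw [sty, h2, insert_val_of_notMem h1, Multiset.map_cons, sty]

theorem sty_of_hasTy : ∀ {L : List Cy} {T : Finset (Fin n)}, HasTy g T L → sty T g = L
  | [], _, h => by rw [hasTy_nil.1 h, sty_empty]; rfl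
  | c :: L, T, h => by
    obtain ⟨x, hx, -, h2, h3, h4⟩ := hasTy_cons.1 h
    rw [sty_step (stab_of_hasTy h) hx, h2, h3, sty_of_hasTy h4]
    rfl

theorem tyO_eq (h : Stab T g.π) : tyO g.π T = (sty T g).map Prod.fst := by
  induction T using Finset.strongInduction with
  | H T ih =>
    rcases T.eq_empty_or_nonempty with rfl | ⟨x, hx⟩
    · rw [sty_empty, MN.tyO_empty, Multiset.map_zero]
    · rw [sty_step h hx, MN.tyO_step h hx, Multiset.map_cons,
        ih _ (sdiff_ssubset (cyc_subset h hx) ⟨x, self_mem _ _⟩) (stab_sdiff h (stab_cyc _ _))]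

theorem sty_size (h : Stab T g.π) : ((sty T g).map Prod.fst).sum = #T := by
  obtain ⟨L, hL⟩ := exists_hasTy h
  rw [sty_of_hasTy hL, (of_hasTy hL).2.2, Multiset.map_coe, Multiset.sum_coe]

theorem sty_sign (h : Stab T g.π) : ((sty T g).map Prod.snd).prod = ∏ j ∈ T, g.s j := by
  obtain ⟨L, hL⟩ := exists_hasTy h
  rw [sty_of_hasTy hL, (of_hasTy hL).2.1, Multiset.map_coe, Multiset.prod_coe]

theorem sty_pos (T : Finset (Fin n)) (g : SG n) : ∀ c ∈ sty T g, 0 < c.1 := fun c hc => by
  obtain ⟨C, hC, rfl⟩ := Multiset.mem_map.1 hc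
  obtain ⟨x, -, rfl⟩ := mem_image.1 hC
  exact card_pos.2 ⟨x, self_mem _ _⟩

theorem sty_congr (h : Stab T g.π) (e : ∀ j ∈ T, g.π j = g'.π j ∧ g.s j = g'.s j) : sty T g = sty T g' := by
  obtain ⟨L, hL⟩ := exists_hasTy h
  rw [sty_of_hasTy hL, sty_of_hasTy (hasTy_congr hL fun j hj => ⟨(e j hj).1.symm, (e j hj).2.symm⟩)]

theorem sty_fst (T : Finset (Fin n)) (g : SG n) : (sty T g).map Prod.fst = (sty T ⟨g.π, 1⟩).map Prod.fst := by
  simp only [sty, Multiset.map_map, Function.comp_def]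

theorem sty_congr_fst (h : Stab T g.π) (e : ∀ j ∈ T, g.π j = g'.π j) : (sty T g).map Prod.fst = (sty T g').map Prod.fst := by
  rw [sty_fst T g, sty_fst T g', sty_congr (g := ⟨g.π, 1⟩) (g' := ⟨g'.π, 1⟩) h fun j hj => ⟨e j hj, rfl⟩]

theorem sty_conj (T : Finset (Fin n)) (g h : SG n) : sty (T.map h.π.toEmbedding) (h * g * h⁻¹) = sty T g := by
  have h1 : (T.map h.π.toEmbedding).image (cyc (h * g * h⁻¹).π) = (T.image (cyc g.π)).map (mapEmbedding h.π.toEmbedding).toEmbedding := by
    rw [map_eq_image, map_eq_image, image_image, image_image]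
    exact image_congr fun x _ => cyc_conj h g x
  rw [sty, h1, map_val, Multiset.map_map, sty]
  refine Multiset.map_congr rfl fun C hC => ?_
  obtain ⟨x, -, rfl⟩ := mem_image.1 hC
  show (#((cyc g.π x).map h.π.toEmbedding), ∏ j ∈ (cyc g.π x).map h.π.toEmbedding, (h * g * h⁻¹).s j) = _
  rw [card_map, prod_conj h (stab_cyc _ _)]

theorem sty_conj' {h : SG n} (hh : Stab T h.π) (g : SG n) : sty T (h * g * h⁻¹) = sty T g := by
  have := sty_conj T g h
  rwa [map_stab hh] at this

theorem exists_sty {s : Multiset Cy} (h0 : ∀ c ∈ s, 0 < c.1) (h : #T = (s.map Prod.fst).sum) : ∃ g ∈ On T, sty T g = s := by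
  induction s using Quotient.inductionOn with
  | h L =>
    obtain ⟨g, hg, h1⟩ := exists_ty (L := L) h0 (by simpa using h)
    exact ⟨g, hg, sty_of_hasTy h1⟩

theorem Y_congr (κ : Kn) (M : ℕ) (u : Finset Pt) (h : Stab T g.π) (e : Ag κ T g g') : Y κ M T u g = Y κ M T u g' := by
  cases κ
  · simp only [Y, YK, sty_congr_fst h e]
  · simp only [Y, YK, sty_congr_fst h e]
  · simp only [Y, sty_congr h e]
  · simp only [Y, sty_congr h e]

theorem le_ps (κ : Kn) (a : Pt) : a.1 ≤ ps κ a := by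
  cases κ <;> simp only [ps] <;> omega

theorem mem_Lab {κ : Kn} {k : ℕ} : u ∈ Lab κ M k ↔ IsLab κ M k u := by
  rw [Lab, mem_filter, and_iff_right_iff_imp]
  refine fun h => mem_powerset.2 fun a ha => mem_product.2 ⟨mem_range.2 (Nat.lt_succ_of_le ?_), mem_univ _⟩
  rw [← h.2.1]
  exact (le_ps κ a).trans (single_le_sum (f := ps κ) (fun _ _ => Nat.zero_le _) ha)

theorem YK_cons (κ : Kn) (c : Cy) (s : Multiset Cy) (h : #u = M) : YK κ M (c ::ₘ s) u =
    ∑ a ∈ u with c.1 ≤ ps κ a ∧ mk κ c a ∉ u.erase a, sn u a (mk κ c a) * YK κ M s (rp u a (mk κ c a)) := by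
  simp only [YK_eq]
  rw [YT_cons, alt_move (YT_alt κ s) h (fun a => c.1 ≤ ps κ a) (mk κ c)]

theorem YK_box (κ : Kn) (s : Multiset Cy) (h : #u = M) : YK κ M (bc κ ::ₘ s) u = ∑ a ∈ rem u, YK κ M s (bx u a) := by
  simp only [YK_eq]
  rw [YT_box, alt_down (YT_alt κ s) h]

/-- **cycles, invariance, Murnaghan-Nakayama** -/
theorem bMN : BMN where
  mem _ _ _ _ := mem_Lab
  step _ _ h _ hx := sty_step h hx
  size T g h := ⟨sty_size h, sty_sign h, sty_pos T g⟩
  congr κ M _ _ u _ _ h e := Y_congr κ M u h e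
  conj := sty_conj
  alt _ := YM_alt
  mn κ _ c s _ h _ := YK_cons κ c s h
  box κ _ s _ h _ := YK_box κ s h

example := And.intro @YT.eq_def (And.intro @YT.eq_1 (And.intro @YT.eq_2 @YT.eq_3))
example := And.intro @sgn2.eq_def (And.intro @sgn2.eq_1 (And.intro @cp.eq_def @cp.eq_1))

end Cfsg.Agent.MO.J
end

-- part: MO/J/ParsT
section
/-!
# MO-J: raising, induction from the box Levi, the recursion of Parseval's sum (helper19)

* `occ` : the low positions of a tuple of small rank are occupied; `raise_YM`, `raise` : the raising identity for a signed cycle;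
* `bInd : BInd`;
* `sum_TS` : sums over tuples and sums over labels; `adj` : lowering is adjoint to raising;
* `PL_cons`, `PL_zero` : the recursion for the sum `PL` in Parseval's identity.
-/

set_option autoImplicit false
set_option linter.unusedSectionVars false

namespace Cfsg.Agent.MO.J.Pars

open Equiv Finset Cfsg.Agent.H614

variable {M : ℕ} {u : Finset Pt}

/-- the pairing reproduces the alternating functions -/
theorem sum_pr {Ω : Type} [DecidableEq Ω] {Φ : (Fin M → Ω) → ℤ} (hΦ : AltT Φ) {S : Finset (Fin M → Ω)} {γ : Fin M → Ω}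
    (h : ∀ σ : Perm (Fin M), γ ∘ σ ∈ S) : ∑ τ ∈ S, pr τ γ * Φ τ = M.factorial * Φ γ := by
  unfold pr
  simp only [sum_mul]
  rw [sum_comm]
  have h1 : ∀ σ : Perm (Fin M), ∑ τ ∈ S, (if τ = γ ∘ σ then sg σ else 0) * Φ τ = Φ γ := fun σ => by
    simp only [ite_mul, zero_mul]
    rw [sum_ite_eq', if_pos (h σ), hΦ, smul_eq_mul, ← mul_assoc, sg_mul_self, one_mul]
  simp only [h1, sum_const, card_univ, Fintype.card_perm, Fintype.card_fin, nsmul_eq_mul]

theorem exists_tup {τ : Fin M → Pt} (hτ : Function.Injective τ) : ∃ σ : Perm (Fin M), τ = tup M (univ.image τ) ∘ σ :=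
  exists_perm hτ fun i => tup_surj (card_image' hτ) (mem_image_of_mem τ (mem_univ i))

/-! ### the vacuum and the rank -/

theorem bs_eq (M : ℕ) : ∑ i ∈ range M, i / 2 = M / 2 * ((M - 1) / 2) := by
  induction M with
  | zero => rfl
  | succ M ih =>
    rw [sum_range_succ, ih, Nat.add_sub_cancel]
    obtain ⟨k, rfl | rfl⟩ := Nat.even_or_odd' M
    · rcases k with _ | k
      · rfl
      · rw [show 2 * (k + 1) / 2 = k + 1 by omega, show (2 * (k + 1) - 1) / 2 = k by omega,
          show (2 * (k + 1) + 1) / 2 = k + 1 by omega]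
        ring
    · rw [show (2 * k + 1) / 2 = k by omega, show (2 * k + 1 - 1) / 2 = k by omega, show (2 * k + 1 + 1) / 2 = k + 1 by omega]
      ring

theorem psU_inj : Function.Injective (ps .U) := fun a b h => by
  obtain ⟨x, p⟩ := a
  obtain ⟨y, q⟩ := b
  cases p <;> cases q <;> simp only [ps, Bool.toNat_false, Bool.toNat_true] at h <;> simp only [Prod.mk.injEq] <;>
    first | (clear * - h; omega) | exact ⟨by omega, trivial⟩

theorem bs_le (u : Finset Pt) : ∑ i ∈ range #u, i / 2 ≤ ∑ a ∈ u, a.1 := by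
  induction u using Finset.induction_on_max_value (ps .U) with
  | empty => simp
  | insert a u ha h ih =>
    rw [card_insert_of_notMem ha, sum_range_succ, sum_insert ha]
    have h1 : #((insert a u).image (ps .U)) ≤ #(range (ps .U a + 1)) := card_le_card fun x hx => by
      obtain ⟨b, hb, rfl⟩ := mem_image.1 hx
      rcases mem_insert.1 hb with rfl | hb
      · exact self_mem_range_succ _
      · exact mem_range_succ_iff.2 (h b hb)
    rw [card_image_of_injective _ psU_inj, card_insert_of_notMem ha, card_range] at h1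
    have h2 : ps .U a ≤ 2 * a.1 + 1 := Nat.add_le_add_left (Bool.toNat_le _) _
    omega

theorem bs_le_tup {τ : Fin M → Pt} (h : Function.Injective τ) : ∑ i ∈ range M, i / 2 ≤ ∑ j, (τ j).1 := by
  have h1 := bs_le (univ.image τ)
  rwa [card_image_of_injective _ h, card_univ, Fintype.card_fin, sum_image fun i _ j _ e => h e] at h1

/-- the low positions are occupied -/
theorem occ {τ : Fin M → Pt} (h : Function.Injective τ) {r : ℕ} (hr : ∑ j, (τ j).1 + r ≤ ∑ i ∈ range M, i / 2 + M / 2)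
    {a : Pt} (ha : a.1 < r) : ∃ j, τ j = a := by
  by_contra hn
  have h0 : a ∉ univ.image τ := by simpa only [_root_.Finset.mem_image, _root_.Finset.mem_univ, _root_.true_and, _root_.not_exists] using hn
  have h1 := bs_le (insert a (univ.image τ))
  rw [card_insert_of_notMem h0, card_image_of_injective _ h, card_univ, Fintype.card_fin, sum_insert h0,
    sum_image fun i _ j _ e => h e, sum_range_succ] at h1
  omega

theorem v0_inj : Function.Injective (v0 M) := fun i j h => by
  simp only [v0] at h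
  split_ifs at h <;> simp only [Prod.mk.injEq, Bool.false_eq_true, Bool.true_eq_false, and_true, and_false] at h
  · exact Fin.ext h
  · exact Fin.ext (by omega)

theorem v1_inj (hM : M % 2 = 1) : Function.Injective (v1 M) := fun i j h => by
  have := i.2
  have := j.2
  simp only [v1, v0] at h
  split_ifs at h <;> simp only [Prod.mk.injEq, Bool.false_eq_true, Bool.true_eq_false, and_true, and_false] at h <;>
    exact Fin.ext (by omega)

theorem sum_v0 : ∑ j, (v0 M j).1 = ∑ i ∈ range M, i / 2 := by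
  have h1 : ∑ j, (v0 M j).1 = ∑ i ∈ range ((M + 1) / 2 + M / 2), if i < (M + 1) / 2 then i else i - (M + 1) / 2 := by
    rw [show (M + 1) / 2 + M / 2 = M by omega, ← Fin.sum_univ_eq_sum_range]
    exact sum_congr rfl fun j _ => by unfold v0; split_ifs <;> rfl
  rw [h1, sum_range_add, sum_congr rfl fun i hi => if_pos (mem_range.1 hi),
    sum_congr rfl fun i _ => (if_neg (by omega)).trans (Nat.add_sub_cancel_left _ i), bs_eq]
  have h2 := sum_range_id_mul_two ((M + 1) / 2)
  have h3 := sum_range_id_mul_two (M / 2)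
  obtain ⟨k, rfl | rfl⟩ := Nat.even_or_odd' M
  · rcases k with _ | k
    · rfl
    · rw [show 2 * (k + 1) / 2 = k + 1 by (clear * -; omega), show (2 * (k + 1) + 1) / 2 = k + 1 by (clear * -; omega)] at *
      rw [show (2 * (k + 1) - 1) / 2 = k by omega]
      rw [Nat.add_sub_cancel] at h2
      omega
  · rw [show (2 * k + 1) / 2 = k by (clear * -; omega), show (2 * k + 1 + 1) / 2 = k + 1 by (clear * -; omega)] at *
    rw [show (2 * k + 1 - 1) / 2 = k by omega]
    rcases k with _ | k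
    · rfl
    · rw [Nat.add_sub_cancel] at h2 h3
      linarith only [h2, h3]

theorem sum_v1 (hM : M % 2 = 1) : ∑ j, (v1 M j).1 = ∑ i ∈ range M, i / 2 := by
  rw [← sum_v0]
  refine sum_congr rfl fun j _ => ?_
  unfold v1
  split_ifs with h
  · unfold v0
    rw [if_pos (by omega)]
  · rfl

theorem sum_update (τ : Fin M → Pt) (j : Fin M) (b : Pt) (f : Pt → ℕ) :
    ∑ k, f (Function.update τ j b k) + f (τ j) = ∑ k, f (τ k) + f b := by
  rw [← add_sum_erase _ _ (mem_univ j), ← add_sum_erase _ (fun k => f (τ k)) (mem_univ j), Function.update_self,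
    sum_congr rfl fun k hk => by rw [Function.update_of_ne (ne_of_mem_erase hk)]]
  omega

theorem vc_rk {τ : Fin M → Pt} (h : vc τ ≠ 0) : ∑ j, (τ j).1 = ∑ i ∈ range M, i / 2 := by
  by_cases h0 : pr τ (v0 M) = 0
  · unfold vc at h
    rw [h0, zero_add] at h
    split_ifs at h with hM
    · obtain ⟨σ, rfl⟩ := pr_ne h
      exact (Equiv.sum_comp σ fun j => (v1 M j).1).trans (sum_v1 hM)
    · exact absurd rfl h
  · obtain ⟨σ, rfl⟩ := pr_ne h0
    exact (Equiv.sum_comp σ fun j => (v0 M j).1).trans sum_v0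

theorem YM_rk (s : Multiset Cy) {τ : Fin M → Pt} (h : YM s τ ≠ 0) :
    ∑ j, (τ j).1 = (s.map Prod.fst).sum + ∑ i ∈ range M, i / 2 := by
  induction s using Multiset.induction_on generalizing τ with
  | empty => simpa only [_root_.Multiset.map_zero, _root_.Multiset.sum_zero, _root_.zero_add] using vc_rk h
  | cons c s ih =>
    rw [YM_cons] at h
    obtain ⟨j, -, h1⟩ := exists_ne_zero_of_sum_ne_zero h
    have h2 : c.1 ≤ (τ j).1 := by_contra fun e => h1 (if_neg e)
    rw [if_pos h2] at h1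
    have h3 := ih h1
    have h4 := sum_update τ j (mv c (τ j)) Prod.fst
    simp only [Multiset.map_cons, Multiset.sum_cons, dn, mv] at h3 h4 ⊢
    omega

/-! ### raising for `B` and `D` -/

/-- the inverse move -/
def uv (c : Cy) (a : Pt) : Pt := (a.1 + c.1, fl c.2 a.2)

theorem fl_fl (η : ℤˣ) (b : Bool) : fl η (fl η b) = b := by unfold fl; split_ifs <;> simp

theorem fl_eq {η η' : ℤˣ} {b : Bool} (h : fl η (fl η' b) = b) : η = η' := by
  revert h
  rcases Int.units_eq_one_or η with rfl | rfl <;> rcases Int.units_eq_one_or η' with rfl | rfl <;> cases b <;> decide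

/-- the boundary term of the commutator -/
theorem boundary (s : Multiset Cy) (c d : Cy) {τ : Fin M → Pt} (h : Function.Injective τ)
    (hr : ∑ j, (τ j).1 + d.1 ≤ ∑ i ∈ range M, i / 2 + M / 2) :
    ∑ j, (if ¬ c.1 ≤ (τ j).1 ∧ c.1 ≤ (τ j).1 + d.1 then YM s (Function.update τ j (mv c (uv d (τ j)))) else 0) =
      if c = d then 2 * d.1 * YM s τ else 0 := by
  split_ifs with e
  · subst e
    have h1 : ∀ j, Function.update τ j (mv c (uv c (τ j))) = τ := fun j => by
      simp only [mv, uv, Nat.add_sub_cancel, fl_fl, Function.update_eq_self]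
    have h2 : #{j | ¬ c.1 ≤ (τ j).1 ∧ c.1 ≤ (τ j).1 + c.1} = #(range c.1 ×ˢ (univ : Finset Bool)) :=
      card_bij (fun j _ => τ j) (fun j hj => by simpa using (mem_filter.1 hj).2.1) (fun i _ j _ e => h e) fun a ha => by
        have h3 : a.1 < c.1 := by simpa using ha
        obtain ⟨j, rfl⟩ := occ h hr h3
        exact ⟨j, mem_filter.2 ⟨mem_univ _, by omega⟩, rfl⟩
    simp only [h1]
    rw [← sum_filter, sum_const, h2, card_product, card_range, card_univ, Fintype.card_bool, nsmul_eq_mul]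
    push_cast
    ring
  · refine sum_eq_zero fun j _ => ?_
    split_ifs with hj
    · obtain ⟨k, hk⟩ := occ h hr (a := mv c (uv d (τ j))) (by simp only [mv, uv]; omega)
      have hkj : k ≠ j := by
        rintro rfl
        have h1 := Prod.ext_iff.1 hk
        simp only [mv, uv] at h1
        exact e (Prod.ext (by omega) (fl_eq h1.2.symm))
      exact (YM_alt s).zero fun hi => hkj (hi (by rw [Function.update_self, Function.update_of_ne hkj, hk]))
    · rfl

theorem raise_step (s : Multiset Cy) (c d : Cy) (τ : Fin M → Pt) :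
    ∑ j, YM (c ::ₘ s) (Function.update τ j (uv d (τ j))) =
      ∑ k, (if c.1 ≤ (τ k).1 then ∑ j, YM s (Function.update (dn τ k c) j (uv d (dn τ k c j))) else 0) +
      ∑ j, (if ¬ c.1 ≤ (τ j).1 ∧ c.1 ≤ (τ j).1 + d.1 then YM s (Function.update τ j (mv c (uv d (τ j)))) else 0) := by
  have h1 : ∀ k, (if c.1 ≤ (τ k).1 then ∑ j, YM s (Function.update (dn τ k c) j (uv d (dn τ k c j))) else 0) =
      ∑ j, if c.1 ≤ (τ k).1 then YM s (Function.update (dn τ k c) j (uv d (dn τ k c j))) else 0 := fun k => by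
    split_ifs <;> simp only [_root_.Finset.sum_const_zero]
  simp only [h1, YM_cons]
  rw [sum_comm (f := fun k j => if c.1 ≤ (τ k).1 then YM s (Function.update (dn τ k c) j (uv d (dn τ k c j))) else 0),
    ← sum_add_distrib]
  refine sum_congr rfl fun j _ => ?_
  rw [← add_sum_erase _ _ (mem_univ j), ← add_sum_erase _ _ (mem_univ j), add_right_comm]
  congr 1
  · simp only [dn, Function.update_self, Function.update_idem]
    by_cases e : c.1 ≤ (τ j).1
    · rw [if_pos (show c.1 ≤ (uv d (τ j)).1 from e.trans (Nat.le_add_right _ _)), if_pos e, if_neg (fun e' => e'.1 e), add_zero]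
      congr 2
      simp only [mv, uv, fl_comm c.2, Prod.mk.injEq, and_true]
      omega
    · simp only [e, if_false, not_false_eq_true, true_and, zero_add]
      rfl
  · refine sum_congr rfl fun k hk => ?_
    have e := ne_of_mem_erase hk
    simp only [dn, Function.update_of_ne e, Function.update_of_ne e.symm, Function.update_comm e]

theorem alt_raise {Φ : (Fin M → Pt) → ℤ} (hΦ : AltT Φ) (f : Pt → Pt) :
    AltT fun τ : Fin M → Pt => ∑ j, Φ (Function.update τ j (f (τ j))) := by
  simpa only [↓ _root_.reduceIte] using hΦ.move' (fun _ => True) f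

theorem raise_aux (s : Multiset Cy) {d : Cy} (hd : 0 < d.1) (τ : Fin M → Pt)
    (hr : ∑ j, (τ j).1 + d.1 ≤ ∑ i ∈ range M, i / 2 + M / 2) :
    ∑ j, YM s (Function.update τ j (uv d (τ j))) = 2 * d.1 * s.count d * YM (s.erase d) τ := by
  induction s using Multiset.induction_on generalizing τ with
  | empty =>
    by_cases h : Function.Injective τ
    · rw [Multiset.count_zero, Nat.cast_zero, mul_zero, zero_mul]
      refine sum_eq_zero fun j _ => by_contra fun e => ?_
      have h1 := vc_rk e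
      have h2 := sum_update τ j (uv d (τ j)) Prod.fst
      have h3 := bs_le_tup h
      simp only [uv] at h1 h2
      omega
    · rw [(YM_alt _).zero h, mul_zero]
      exact (alt_raise (YM_alt 0) (uv d)).zero h
  | cons c s ih =>
    by_cases h : Function.Injective τ
    · have h1 : ∀ k, (if c.1 ≤ (τ k).1 then ∑ j, YM s (Function.update (dn τ k c) j (uv d (dn τ k c j))) else 0) =
          2 * d.1 * s.count d * if c.1 ≤ (τ k).1 then YM (s.erase d) (dn τ k c) else 0 := fun k => by
        split_ifs with e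
        · refine ih _ (le_trans ?_ hr)
          have h2 := sum_update τ k (mv c (τ k)) Prod.fst
          simp only [dn, mv] at h2 ⊢
          omega
        · rw [mul_zero]
      rw [raise_step, boundary s c d h hr, sum_congr rfl fun k _ => h1 k, ← mul_sum, ← YM_cons]
      split_ifs with e
      · subst e
        rw [Multiset.count_cons_self, Multiset.erase_cons_head]
        by_cases e : c ∈ s
        · rw [Multiset.cons_erase e]; push_cast; ring
        · rw [Multiset.count_eq_zero.2 e]; push_cast; ring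
      · rw [Multiset.count_cons_of_ne (Ne.symm e), Multiset.erase_cons_tail _ e, add_zero]
    · rw [(YM_alt _).zero h, mul_zero]
      exact (alt_raise (YM_alt _) (uv d)).zero h

/-- **Raising** for `B` and `D`. -/
theorem raise_YM {s : Multiset Cy} (hs : (s.map Prod.fst).sum ≤ M / 2) {d : Cy} (hd : 0 < d.1) (τ : Fin M → Pt) :
    ∑ j, YM s (Function.update τ j (uv d (τ j))) = 2 * d.1 * s.count d * YM (s.erase d) τ := by
  by_cases hr : ∑ j, (τ j).1 + d.1 ≤ ∑ i ∈ range M, i / 2 + M / 2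
  · exact raise_aux s hd τ hr
  · have h1 : ∑ j, YM s (Function.update τ j (uv d (τ j))) = 0 := by
      refine sum_eq_zero fun j _ => by_contra fun e => ?_
      have h1 := YM_rk s e
      have h2 := sum_update τ j (uv d (τ j)) Prod.fst
      simp only [uv] at h1 h2
      omega
    rw [h1]
    by_cases e : d ∈ s
    · rw [show YM (s.erase d) τ = 0 from by_contra fun e' => ?_, mul_zero]
      have h2 := YM_rk _ e'
      rw [← Multiset.cons_erase e, Multiset.map_cons, Multiset.sum_cons] at hs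
      omega
    · rw [Multiset.count_eq_zero.2 e, Nat.cast_zero, mul_zero, zero_mul]

/-! ### all kinds -/

/-- the inverse move, for all kinds -/
def uk : Kn → Cy → Pt → Pt
  | .A, c, a => (a.1 + c.1, a.2)
  | .U, c, a => ((ps .U a + c.1) / 2, decide ((ps .U a + c.1) % 2 = 1))
  | _, c, a => uv c a

theorem psU_mk (x : ℕ) : ps .U (x / 2, decide (x % 2 = 1)) = x := by
  rcases Nat.mod_two_eq_zero_or_one x with h | h <;> simp only [ps, h] <;> simp <;> omega

theorem ps_uk (κ : Kn) (c : Cy) (a : Pt) : ps κ (uk κ c a) = ps κ a + c.1 := by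
  cases κ
  exacts [rfl, psU_mk _, rfl, rfl]

theorem mk_uk (κ : Kn) (c : Cy) (a : Pt) : mk κ c (uk κ c a) = a := by
  cases κ
  · exact Prod.ext (Nat.add_sub_cancel _ _) rfl
  · exact psU_inj (by rw [ps_mk, ps_uk, Nat.add_sub_cancel])
  all_goals exact Prod.ext (Nat.add_sub_cancel _ _) (fl_fl _ _)

theorem uk_mk (κ : Kn) (c : Cy) (a : Pt) (h : c.1 ≤ ps κ a) : uk κ c (mk κ c a) = a := by
  cases κ
  · exact Prod.ext (Nat.sub_add_cancel h) rfl
  · exact psU_inj (by rw [ps_uk, ps_mk, Nat.sub_add_cancel h])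
  all_goals exact Prod.ext (Nat.sub_add_cancel h) (fl_fl _ _)

theorem uk_bc (κ : Kn) (a : Pt) : uk κ (bc κ) a = (a.1 + 1, a.2) := by
  cases κ
  · rfl
  · exact psU_inj (by rw [ps_uk]; simp only [ps, bc]; omega)
  all_goals rfl

theorem ps_update (κ : Kn) (τ : Fin M → Pt) (j : Fin M) (b : Pt) :
    (fun i => ps κ (Function.update τ j b i)) = Function.update (fun i => ps κ (τ i)) j (ps κ b) :=
  Function.comp_update (ps κ) τ j b

theorem ok_le {κ : Kn} {n m : ℕ} (h : Ok κ M n) (hm : m ≤ n) : Ok κ M m := by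
  cases κ
  exacts [hm.trans h, hm.trans h, ⟨h.1, hm.trans h.2⟩, ⟨h.1, hm.trans h.2⟩]

theorem raise_FM {κ : Kn} (hκ : κ = .A ∨ κ = .U) {s : Multiset Cy} (h0 : ∀ c ∈ s, 0 < c.1) (hs : Ok κ M (s.map Prod.fst).sum)
    {d : Cy} (hd : 0 < d.1) (τ : Fin M → Pt) : ∑ j, YT κ s (Function.update τ j (uk κ d (τ j))) =
      d.1 * (s.map Prod.fst).count d.1 * FM ((s.map Prod.fst).erase d.1) fun i => ps κ (τ i) := by
  have h1 : ∀ i ∈ s.map Prod.fst, 0 < i := fun i hi => by
    obtain ⟨c, hc, rfl⟩ := Multiset.mem_map.1 hi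
    exact h0 c hc
  rcases hκ with rfl | rfl <;>
  · simp only [YT, ps_update, ps_uk]
    exact (raise_eq hd hs h1 _).trans (by rw [Nat.cast_mul])

/-- the number of the signs -/
def ws (κ : Kn) : ℕ := if κ = .A ∨ κ = .U then 1 else 2

/-- **Raising.** -/
theorem raise {κ : Kn} {s : Multiset Cy} (h0 : ∀ c ∈ s, 0 < c.1) (hs : Ok κ M (s.map Prod.fst).sum) {d : Cy} (hd : 0 < d.1)
    (h1 : κ = .A ∨ κ = .U → d.2 = 1 ∧ ∀ c ∈ s, c.2 = 1) (τ : Fin M → Pt) :
    ∑ j, YT κ s (Function.update τ j (uk κ d (τ j))) = ws κ * d.1 * s.count d * YT κ (s.erase d) τ := by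
  by_cases hκ : κ = .A ∨ κ = .U
  · have h2 : Set.InjOn Prod.fst {c : Cy | c.2 = 1} := fun a ha b hb e => Prod.ext e (ha.trans hb.symm)
    have h3 : (s.map Prod.fst).count d.1 = s.count d := by
      rw [Multiset.count_map, Multiset.count_eq_card_filter_eq]
      exact congrArg _ (Multiset.filter_congr fun c hc => ⟨h2 (h1 hκ).1 ((h1 hκ).2 c hc), congrArg _⟩)
    rw [raise_FM hκ h0 hs hd, h3, ws, if_pos hκ, Nat.cast_one, one_mul]
    by_cases e : d ∈ s
    · rw [← Multiset.map_erase_of_mem _ _ e]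
      rcases hκ with rfl | rfl <;> rfl
    · rw [Multiset.count_eq_zero.2 e, Nat.cast_zero, mul_zero, zero_mul, zero_mul]
  · rw [ws, if_neg hκ]
    cases κ
    · exact absurd (Or.inl rfl) hκ
    · exact absurd (Or.inr rfl) hκ
    all_goals exact raise_YM hs.2 hd τ

/-! ### sums over the tuples -/

/-- the tuples with the sum `N` -/
def TS (κ : Kn) (M N : ℕ) : Finset (Fin M → Pt) :=
  {τ ∈ Fintype.piFinset fun _ => range (N + 1) ×ˢ (univ : Finset Bool) | ∑ j, ps κ (τ j) = N ∧ (κ = .A → ∀ j, (τ j).2 = false)}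

theorem mem_TS {κ : Kn} {N : ℕ} {τ : Fin M → Pt} : τ ∈ TS κ M N ↔ ∑ j, ps κ (τ j) = N ∧ (κ = .A → ∀ j, (τ j).2 = false) := by
  refine ⟨fun h => (mem_filter.1 h).2, fun h => mem_filter.2 ⟨Fintype.mem_piFinset.2 fun j => ?_, h⟩⟩
  have h1 := single_le_sum (f := fun j => ps κ (τ j)) (fun _ _ => Nat.zero_le _) (mem_univ j)
  have h2 := le_ps κ (τ j)
  have h3 := h.1
  exact mem_product.2 ⟨mem_range.2 (by omega), mem_univ _⟩

theorem comp_mem_TS {κ : Kn} {N : ℕ} {τ : Fin M → Pt} (h : τ ∈ TS κ M N) (σ : Perm (Fin M)) : τ ∘ σ ∈ TS κ M N :=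
  mem_TS.2 ⟨(Equiv.sum_comp σ fun j => ps κ (τ j)).trans (mem_TS.1 h).1, fun e _ => (mem_TS.1 h).2 e _⟩

theorem sum_TS (κ : Kn) (k : ℕ) {Φ Ψ : (Fin M → Pt) → ℤ} (hΦ : AltT Φ) (hΨ : AltT Ψ) :
    ∑ τ ∈ TS κ M (k + bs κ M), Φ τ * Ψ τ = M.factorial * ∑ u ∈ Lab κ M k, Φ (tup M u) * Ψ (tup M u) := by
  have h1 : ∑ z ∈ Lab κ M k ×ˢ (univ : Finset (Perm (Fin M))), Φ (tup M z.1 ∘ z.2) * Ψ (tup M z.1 ∘ z.2) =
      M.factorial * ∑ u ∈ Lab κ M k, Φ (tup M u) * Ψ (tup M u) := by
    rw [sum_product, mul_sum]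
    refine sum_congr rfl fun u _ => ?_
    rw [sum_congr rfl fun σ _ => show _ = Φ (tup M u) * Ψ (tup M u) by
      rw [hΦ, hΨ, smul_eq_mul, smul_eq_mul, mul_mul_mul_comm, sg_mul_self, one_mul]]
    simp only [sum_const, card_univ, Fintype.card_perm, Fintype.card_fin, nsmul_eq_mul]
  rw [← h1]
  symm
  refine sum_bij_ne_zero (fun z _ _ => tup M z.1 ∘ z.2) (fun z hz _ => comp_mem_TS ?_ _) (fun z hz _ z' hz' _ e => ?_)
    (fun τ hτ h0 => ?_) fun _ _ _ => rfl
  · have h := mem_Lab.1 (mem_product.1 hz).1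
    exact mem_TS.2 ⟨(sum_tup h.1 _).trans h.2.1, fun e j => h.2.2 e _ (tup_mem h.1 j)⟩
  · have h := (mem_Lab.1 (mem_product.1 hz).1).1
    have h' := (mem_Lab.1 (mem_product.1 hz').1).1
    have h2 : z.1 = z'.1 := by
      have h3 := congrArg (univ.image ·) e
      simp only [← image_image, image_univ_equiv, image_tup h, image_tup h'] at h3
      exact h3
    refine Prod.ext h2 (Equiv.ext fun i => tup_inj h ?_)
    rw [← h2] at e
    exact congrFun e i
  · have h : Function.Injective τ := by_contra fun e => h0 (by rw [hΦ.zero e, zero_mul])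
    obtain ⟨σ, hσ⟩ := exists_tup h
    have h2 := mem_TS.1 hτ
    refine ⟨(univ.image τ, σ), mem_product.2 ⟨mem_Lab.2 ⟨?_, ?_, fun e a ha => ?_⟩, mem_univ _⟩, by rwa [← hσ], hσ.symm⟩
    · rw [card_image_of_injective _ h, card_univ, Fintype.card_fin]
    · rw [sum_image fun i _ j _ e => h e, h2.1]
    · obtain ⟨j, -, rfl⟩ := mem_image.1 ha
      exact h2.2 e j

theorem adj (κ : Kn) (N : ℕ) (c : Cy) (Φ Ψ : (Fin M → Pt) → ℤ) :
    ∑ τ ∈ TS κ M (N + c.1), (∑ j, if c.1 ≤ ps κ (τ j) then Φ (Function.update τ j (mk κ c (τ j))) else 0) * Ψ τ =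
      ∑ τ ∈ TS κ M N, Φ τ * ∑ j, Ψ (Function.update τ j (uk κ c (τ j))) := by
  simp only [sum_mul, mul_sum, ite_mul, zero_mul]
  rw [sum_comm, sum_comm (s := TS κ M N)]
  refine sum_congr rfl fun j _ => ?_
  rw [← sum_filter]
  refine sum_bij' (fun τ _ => Function.update τ j (mk κ c (τ j))) (fun τ _ => Function.update τ j (uk κ c (τ j)))
    (fun τ hτ => ?_) (fun τ hτ => ?_) (fun τ hτ => ?_) (fun τ _ => ?_) fun τ hτ => ?_
  · obtain ⟨h1, h2⟩ := mem_filter.1 hτ
    obtain ⟨h3, h4⟩ := mem_TS.1 h1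
    have h5 := sum_update τ j (mk κ c (τ j)) (ps κ)
    rw [ps_mk] at h5
    refine mem_TS.2 ⟨by omega, fun e i => ?_⟩
    by_cases e' : i = j
    · subst e e'; rw [Function.update_self]; exact h4 rfl i
    · rw [Function.update_of_ne e']; exact h4 e i
  · obtain ⟨h3, h4⟩ := mem_TS.1 hτ
    have h5 := sum_update τ j (uk κ c (τ j)) (ps κ)
    rw [ps_uk] at h5
    refine mem_filter.2 ⟨mem_TS.2 ⟨by omega, fun e i => ?_⟩, by rw [Function.update_self, ps_uk]; omega⟩
    by_cases e' : i = j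
    · subst e e'; rw [Function.update_self]; exact h4 rfl i
    · rw [Function.update_of_ne e']; exact h4 e i
  · simp only [Function.update_self, Function.update_idem, uk_mk κ c _ (mem_filter.1 hτ).2, Function.update_eq_self]
  · simp only [Function.update_self, Function.update_idem, mk_uk, Function.update_eq_self]
  · simp only [Function.update_self, Function.update_idem, uk_mk κ c _ (mem_filter.1 hτ).2, Function.update_eq_self]

/-- the sum in Parseval's identity -/
def PL (κ : Kn) (M k : ℕ) (s s' : Multiset Cy) : ℤ := ∑ u ∈ Lab κ M k, YK κ M s u * YK κ M s' u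

theorem PL_eq (κ : Kn) (k : ℕ) (s s' : Multiset Cy) :
    ∑ τ ∈ TS κ M (k + bs κ M), YT κ s τ * YT κ s' τ = M.factorial * PL κ M k s s' := by
  simp only [PL, YK_eq]
  exact sum_TS κ k (YT_alt κ s) (YT_alt κ s')

/-- **the recursion** -/
theorem PL_cons {κ : Kn} (k : ℕ) {c : Cy} (s : Multiset Cy) {s' : Multiset Cy} (h0 : ∀ c ∈ s', 0 < c.1)
    (hs : Ok κ M (s'.map Prod.fst).sum) (hc : 0 < c.1) (h1 : κ = .A ∨ κ = .U → c.2 = 1 ∧ ∀ c ∈ s', c.2 = 1) :
    PL κ M (k + c.1) (c ::ₘ s) s' = ws κ * c.1 * s'.count c * PL κ M k s (s'.erase c) := by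
  refine mul_left_cancel₀ (show (M.factorial : ℤ) ≠ 0 from Nat.cast_ne_zero.2 M.factorial_ne_zero) ?_
  rw [mul_left_comm, ← PL_eq, ← PL_eq, add_right_comm, mul_sum]
  simp only [YT_cons]
  rw [adj]
  exact sum_congr rfl fun τ _ => by rw [raise h0 hs hc h1, mul_left_comm]

theorem bs_BD {κ : Kn} (h : ¬ (κ = .A ∨ κ = .U)) : bs κ M = ∑ i ∈ range M, i / 2 := by
  cases κ
  · exact absurd (Or.inl rfl) h
  · exact absurd (Or.inr rfl) h
  all_goals exact (bs_eq M).symm

theorem PL_AU {κ : Kn} (hκ : κ = .A ∨ κ = .U) (v : Fin M → Pt) (hv : ∀ i, ps κ (v i) = i) (hA : κ = .A → ∀ i, (v i).2 = false) :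
    PL κ M 0 0 0 = 1 := by
  refine mul_left_cancel₀ (show (M.factorial : ℤ) ≠ 0 from Nat.cast_ne_zero.2 M.factorial_ne_zero) ?_
  have h1 : ∀ τ : Fin M → Pt, (κ = .A → ∀ i, (τ i).2 = false) → YT κ 0 τ = pr τ v := fun τ hτ => by
    have h2 : YT κ 0 τ = vac fun i => ps κ (τ i) := by rcases hκ with rfl | rfl <;> rfl
    rw [h2]
    refine sum_congr rfl fun σ _ => if_congr ⟨fun e => funext fun i => ?_, fun e => funext fun i => by rw [e]; exact hv _⟩ rfl rfl
    have h3 : ps κ (τ i) = ps κ (v (σ i)) := (congrFun e i).trans (hv _).symm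
    rcases hκ with rfl | rfl
    · exact Prod.ext h3 ((hτ rfl i).trans (hA rfl _).symm)
    · exact psU_inj h3
  have h4 : v ∈ TS κ M (0 + bs κ M) := mem_TS.2 ⟨by
    rw [sum_congr rfl fun i _ => hv i, Fin.sum_univ_eq_sum_range (fun i => i), sum_range_id, zero_add]
    rcases hκ with rfl | rfl <;> rfl, hA⟩
  rw [← PL_eq, sum_congr rfl fun τ hτ => by rw [show YT κ 0 τ * YT κ 0 τ = pr τ v * YT κ 0 τ by rw [← h1 τ (mem_TS.1 hτ).2]],
    sum_pr (YT_alt κ 0) (comp_mem_TS h4), h1 v hA, pr_self fun i j e => Fin.ext (by rw [← hv, ← hv, e])]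

theorem PL_zero {κ : Kn} (h : Ok κ M 0) : PL κ M 0 0 0 = wp κ := by
  have h0 : (M.factorial : ℤ) ≠ 0 := Nat.cast_ne_zero.2 M.factorial_ne_zero
  cases κ
  · exact PL_AU (Or.inl rfl) (fun i => (i, false)) (fun _ => rfl) fun _ _ => rfl
  · exact PL_AU (Or.inr rfl) (fun i => (i / 2, decide ((i : ℕ) % 2 = 1))) (fun _ => psU_mk _) fun e => by cases e
  · have hM : M % 2 = 1 := h.1
    have h1 : ∀ τ : Fin M → Pt, YT .B 0 τ = pr τ (v0 M) + pr τ (v1 M) := fun τ => by
      show vc τ = _
      rw [vc, if_pos hM]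
    have h2 : v0 M ∈ TS .B M (0 + bs .B M) := mem_TS.2 ⟨by rw [zero_add, bs_BD (by simp)]; exact sum_v0, fun e => by cases e⟩
    have h3 : v1 M ∈ TS .B M (0 + bs .B M) := mem_TS.2 ⟨by rw [zero_add, bs_BD (by simp)]; exact sum_v1 hM, fun e => by cases e⟩
    have h4 : pr (v0 M) (v1 M) = 0 := by_contra fun e => by
      obtain ⟨σ, e⟩ := pr_ne e
      have h5 := congrFun e ⟨M / 2, by omega⟩
      have h6 := (σ ⟨M / 2, by omega⟩).2
      simp only [v0, v1, Function.comp_apply] at h5
      split_ifs at h5 <;> simp only [Prod.mk.injEq, Bool.false_eq_true, and_true, and_false] at h5 <;> omega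
    have h5 : pr (v1 M) (v0 M) = 0 := by_contra fun e => by
      obtain ⟨σ, e⟩ := pr_ne e
      have h5 := congrFun e ⟨M / 2, by omega⟩
      have h6 := (σ ⟨M / 2, by omega⟩).2
      simp only [v0, v1, Function.comp_apply, if_true] at h5
      split_ifs at h5 <;> simp only [Prod.mk.injEq, Bool.true_eq_false, and_true, and_false] at h5
      omega
    refine mul_left_cancel₀ h0 ?_
    rw [← PL_eq, sum_congr rfl fun τ _ => show YT .B 0 τ * YT .B 0 τ = pr τ (v0 M) * YT .B 0 τ + pr τ (v1 M) * YT .B 0 τ by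
      rw [← add_mul, ← h1], sum_add_distrib, sum_pr (YT_alt _ 0) (comp_mem_TS h2), sum_pr (YT_alt _ 0) (comp_mem_TS h3), h1, h1,
      h4, h5, pr_self v0_inj, pr_self (v1_inj hM), wp]
    ring
  · have hM : M % 2 = 0 := h.1
    have h1 : ∀ τ : Fin M → Pt, YT .D 0 τ = pr τ (v0 M) := fun τ => by
      show vc τ = _
      rw [vc, if_neg (by omega), add_zero]
    have h2 : v0 M ∈ TS .D M (0 + bs .D M) := mem_TS.2 ⟨by rw [zero_add, bs_BD (by simp)]; exact sum_v0, fun e => by cases e⟩
    refine mul_left_cancel₀ h0 ?_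
    rw [← PL_eq, sum_congr rfl fun τ _ => show YT .D 0 τ * YT .D 0 τ = pr τ (v0 M) * YT .D 0 τ by rw [← h1],
      sum_pr (YT_alt _ 0) (comp_mem_TS h2), h1, pr_self v0_inj]
    rfl

example := And.intro @uv.eq_def (And.intro @uv.eq_1 (And.intro @ws.eq_def @ws.eq_1))
example := And.intro @TS.eq_def (And.intro @TS.eq_1 (And.intro @PL.eq_def @PL.eq_1))
example := And.intro @uk.eq_def (And.intro @uk.eq_1 (And.intro @uk.eq_2 @uk.eq_3))

end Cfsg.Agent.MO.J.Pars

namespace Cfsg.Agent.MO.J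

open Pars

/-- **Induction from the box Levi.** -/
theorem bInd : BInd := fun κ M s u k h0 hs hu => by
  simp only [YK_eq]
  rw [← alt_up (YT_alt κ s) (mem_Lab.1 hu).1]
  simp only [← uk_bc κ]
  by_cases hκ : κ = .A ∨ κ = .U
  · rw [raise_FM hκ h0 hs (by rcases hκ with rfl | rfl <;> decide), if_pos hκ, if_pos hκ]
    rcases hκ with rfl | rfl <;> simp only [YT, wb, bc, Multiset.map_map, _root_.Nat.cast_one, _root_.one_mul, _root_.Function.comp_apply, _root_.Multiset.map_id', _root_.Nat.cast_ofNat]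
  · rw [raise h0 hs (by cases κ <;> decide) (fun e => absurd e hκ), if_neg hκ, if_neg hκ, ws, if_neg hκ]
    cases κ
    · exact absurd (Or.inl rfl) hκ
    · exact absurd (Or.inr rfl) hκ
    all_goals simp [wb, bc]

end Cfsg.Agent.MO.J
end

-- part: MO/J/Cusp
section
/-!
# MO-J: the labels without boxes (helper17)

* `tw c a b` : `a` beads at the bottom of the row `c`, `b` at the bottom of the other row; `exists_tw`;
* `bs_le` : the rank is not negative; `cusp`, `cuspA`, `cuspU`, `unit`.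
-/

set_option autoImplicit false

namespace Cfsg.Agent.MO.J

open Equiv Finset Cfsg.Agent.H614
open Cfsg.Agent.LV.Cl (SG On Stab cyc)

namespace Cu

theorem exists_range {R : Finset ℕ} (h : ∀ x, x + 1 ∈ R → x ∈ R) : ∃ a, ∀ x, x ∈ R ↔ x < a := by
  have h1 : ∃ a, a ∉ R := Infinite.exists_notMem_finset R
  refine ⟨Nat.find h1, fun x => ⟨fun hx => by_contra fun e => Nat.find_spec h1 ?_, fun hx => not_not.1 (Nat.find_min h1 hx)⟩⟩
  exact Nat.decreasingInduction (motive := fun y _ => y ∈ R) (fun y _ => h y) hx (not_lt.1 e)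

/-- the bottoms of the rows -/
def tw (c : Bool) (a b : ℕ) : Finset Pt := (range a).image (·, c) ∪ (range b).image (·, !c)

variable {c : Bool} {a b M k : ℕ} {u : Finset Pt} {κ : Kn}

theorem mem_tw {z : Pt} : z ∈ tw c a b ↔ z.1 < if z.2 = c then a else b := by
  obtain ⟨x, d⟩ := z
  cases c <;> cases d <;> simp only [tw, Bool.not_false, mem_union, mem_image, mem_range, Prod.mk.injEq, and_true, exists_eq_right, Bool.true_eq_false, and_false, exists_const, or_false, ↓reduceIte, Bool.false_eq_true, false_or, Bool.not_true]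

theorem tw_not (c : Bool) (a b : ℕ) : tw (!c) b a = tw c a b := by rw [tw, tw, Bool.not_not, union_comm]

theorem sum_tw (f : Pt → ℕ) : ∑ z ∈ tw c a b, f z = ∑ x ∈ range a, f (x, c) + ∑ x ∈ range b, f (x, !c) := by
  rw [tw, sum_union, sum_image, sum_image]
  · exact fun _ _ _ _ e => congrArg Prod.fst e
  · exact fun _ _ _ _ e => congrArg Prod.fst e
  · simp only [disjoint_left, mem_image, mem_range, not_exists, not_and, forall_exists_index, and_imp, forall_apply_eq_imp_iff₂, Prod.mk.injEq, Bool.not_eq_eq_eq_not, Bool.eq_not_self, and_false, not_false_eq_true, implies_true]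

theorem card_tw : #(tw c a b) = a + b := by simpa only [sum_const, smul_eq_mul, mul_one, card_range] using sum_tw (c := c) (a := a) (b := b) fun _ => 1

theorem mem_row {x : ℕ} : x ∈ row u c ↔ (x, c) ∈ u := by
  delta row
  simp only [mem_image, mem_filter, Prod.exists, exists_and_right, ↓existsAndEq, and_true, exists_eq_right]

theorem exists_tw (h : rem u = ∅) : ∃ a b, u = tw false a b := by
  have h1 : ∀ c, ∃ a, ∀ x, x ∈ row u c ↔ x < a := fun c => exists_range fun x hx => mem_row.2 (by_contra fun e =>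
    notMem_empty (x + 1, c) (h ▸ mem_filter.2 ⟨mem_row.1 hx, x.succ_pos, e⟩))
  obtain ⟨a, ha⟩ := h1 false
  obtain ⟨b, hb⟩ := h1 true
  refine ⟨a, b, Finset.ext fun ⟨x, d⟩ => ?_⟩
  cases d <;> simp [mem_tw, ← ha, ← hb, mem_row]

theorem rem_tw : rem (tw c a b) = ∅ := filter_false_of_mem fun z hz h => h.2 (by
  rw [mem_tw] at hz ⊢
  exact lt_of_le_of_lt (Nat.sub_le _ _) hz)

theorem mem_cu {p r : ℕ} {I : Finset ℕ} {x : ℕ} :
    (x, c) ∈ cu p r I ↔ x < p ∨ if c then x ∈ I else p ≤ x ∧ x < p + r ∧ x ∉ I := by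
  delta cu
  cases c <;> simp only [mem_union, mem_image, mem_range, mem_sdiff, mem_Ico, and_assoc, Prod.mk.injEq, and_true, exists_eq_right, Bool.true_eq_false, and_false, exists_const, or_false, Bool.false_eq_true, ↓reduceIte, false_or]

theorem cu_empty (p r : ℕ) : cu p r ∅ = tw false (p + r) p := by
  ext ⟨x, d⟩
  cases d <;> simp only [mem_cu, Bool.false_eq_true, ↓reduceIte, notMem_empty, not_false_eq_true, and_true, mem_tw, or_false, Bool.true_eq_false]
  omega

theorem cu_full (p r : ℕ) : cu p r (Ico p (p + r)) = tw false p (p + r) := by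
  ext ⟨x, d⟩
  cases d <;> simp only [mem_cu, Bool.false_eq_true, ↓reduceIte, mem_Ico, not_and, not_lt, mem_tw, or_iff_left_iff_imp, and_imp, Bool.true_eq_false] <;> omega

theorem tri (a : ℕ) : 2 * ∑ x ∈ range a, x + a = a * a := by
  induction a with
  | zero => rfl
  | succ a ih => rw [sum_range_succ]; linarith only [ih]

theorem bs_A (h : κ = .A ∨ κ = .U) (M : ℕ) : 2 * bs κ M + M = M * M := by
  rw [← tri, sum_range_id]
  rcases h with rfl | rfl <;> rfl

theorem bs_B (h : κ = .B ∨ κ = .D) (M : ℕ) : 4 * bs κ M + 2 * M = M * M + M % 2 := by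
  have h1 : bs κ M = M / 2 * ((M - 1) / 2) := by rcases h with rfl | rfl <;> rfl
  rw [h1]
  obtain ⟨m, rfl | rfl⟩ := M.even_or_odd'
  · rcases m with _ | m
    · rfl
    · rw [show 2 * (m + 1) / 2 = m + 1 by (clear * - ; omega), show (2 * (m + 1) - 1) / 2 = m by (clear * - ; omega), Nat.mul_mod_right]
      ring
  · rw [show (2 * m + 1) / 2 = m by (clear * - ; omega), show (2 * m + 1 - 1) / 2 = m by (clear * - ; omega), show (2 * m + 1) % 2 = 1 by (clear * - ; omega)]
    ring

theorem ps_B (h : κ = .B ∨ κ = .D) (z : Pt) : ps κ z = z.1 := by rcases h with rfl | rfl <;> rfl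

theorem le_sum (h : #u = M) {f : Pt → ℕ} (hf : Set.InjOn f u) : M * M ≤ 2 * ∑ z ∈ u, f z + M := by
  have h1 := sum_le_of_injective (β := fun i => f (tup M u i)) fun i j e => tup_inj h (hf (tup_mem h i) (tup_mem h j) e)
  rw [sum_tup h, Fin.sum_univ_eq_sum_range (fun i => i)] at h1
  have := tri M
  (clear * - h1 this; omega)

theorem ps_U_inj : Function.Injective (ps .U) := by
  rintro ⟨x, c⟩ ⟨y, d⟩ e
  cases c <;> cases d <;> simp only [ps, Bool.toNat_false, add_zero, mul_eq_mul_left_iff, OfNat.ofNat_ne_zero, or_false, Prod.mk.injEq, and_true, Bool.toNat_true, Bool.false_eq_true, and_false, Bool.true_eq_false, Nat.add_right_cancel_iff] at e ⊢ <;> omega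

/-- the rank is not negative -/
theorem bs_le (h : #u = M) (hA : κ = .A → ∀ z ∈ u, z.2 = false) : bs κ M ≤ ∑ z ∈ u, ps κ z := by
  have hB : κ = .B ∨ κ = .D → bs κ M ≤ ∑ z ∈ u, ps κ z := fun hκ => by
    have h1 := le_sum h ps_U_inj.injOn
    have h2 := le_sum h (f := fun z => ps .U (z.1, !z.2)) fun z _ z' _ e => by
      have := ps_U_inj e
      exact Prod.ext (congrArg Prod.fst this :) (Bool.not_inj (congrArg Prod.snd this))
    have h3 : ∑ z ∈ u, ps .U z + ∑ z ∈ u, ps .U (z.1, !z.2) = 4 * ∑ z ∈ u, ps κ z + M := by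
      rw [← sum_add_distrib, mul_sum, ← h, card_eq_sum_ones, ← sum_add_distrib]
      refine sum_congr rfl fun ⟨x, d⟩ _ => ?_
      rw [ps_B hκ]
      cases d <;> simp only [ps, Bool.toNat_false, add_zero, Bool.not_false, Bool.toNat_true, Bool.not_true] <;> (clear * - ; omega)
    have h4 := bs_B hκ M
    (clear * - h1 h2 h3 h4; omega)
  cases κ
  · have h1 := le_sum h (f := ps .A) fun z hz z' hz' e => Prod.ext e ((hA rfl z hz).trans (hA rfl z' hz').symm)
    have := bs_A (Or.inl rfl) M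
    (clear * - h1 this; omega)
  · have h1 := le_sum h ps_U_inj.injOn
    have := bs_A (Or.inr rfl) M
    (clear * - h1 this; omega)
  · exact hB (Or.inl rfl)
  · exact hB (Or.inr rfl)

theorem rank_B (h : κ = .B ∨ κ = .D) {p r : ℕ} (hM : 2 * p + r = M)
    (hs : ∑ x ∈ range (p + r), x + ∑ x ∈ range p, x = k + bs κ M) : k = r ^ 2 / 4 := by
  have h1 := tri p
  have h2 := tri (p + r)
  have h3 := bs_B h M
  have h4 : 2 * ((p + r) * (p + r)) + 2 * (p * p) = M * M + r ^ 2 := by rw [← hM]; ring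
  (clear * - hM hs h1 h2 h3 h4; (solve | lia | omega))

theorem sum_U (a b : ℕ) : ∑ z ∈ tw false a b, ps .U z + a = a * a + b * b := by
  have h1 := tri a
  have h2 := tri b
  simp only [sum_tw, ps, Bool.toNat_false, Bool.not_false, Bool.toNat_true, sum_add_distrib, ← mul_sum, sum_const, card_range,
    smul_eq_mul]
  (clear * - h1 h2; solve | lia | omega)

end Cu

open Cu

variable {M k : ℕ} {u v : Finset Pt} {κ : Kn}

theorem cusp (h : κ = .B ∨ κ = .D) (hu : u ∈ Lab κ M k) (hr : rem u = ∅) :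
    ∃ p r, 2 * p + r = M ∧ k = r ^ 2 / 4 ∧ (u = cu p r ∅ ∨ u = cu p r (Ico p (p + r))) := by
  obtain ⟨a, b, rfl⟩ := exists_tw hr
  obtain ⟨h1, h2, -⟩ := mem_Lab.1 hu
  simp only [sum_tw, ps_B h] at h2
  rw [card_tw] at h1
  rcases le_total a b with e | e <;> obtain ⟨r, rfl⟩ := Nat.exists_eq_add_of_le e
  · exact ⟨a, r, by (clear * - h1; omega), rank_B h (by omega) ((add_comm _ _).trans h2), Or.inr (cu_full a r).symm⟩
  · exact ⟨b, r, by omega, rank_B h (by omega) h2, Or.inl (cu_empty b r).symm⟩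

theorem cuspA (hu : u ∈ Lab .A M k) (hr : rem u = ∅) : k = 0 := by
  obtain ⟨a, b, rfl⟩ := exists_tw hr
  obtain ⟨h1, h2, h3⟩ := mem_Lab.1 hu
  obtain rfl : b = 0 := by_contra fun e => by simpa using h3 rfl (0, true) (mem_tw.2 (Nat.pos_of_ne_zero e))
  simp only [sum_tw, ps, range_zero, sum_empty] at h2
  rw [card_tw] at h1
  obtain rfl : a = M := h1
  have h4 := tri a
  have h5 := bs_A (Or.inl rfl) a
  omega

theorem cuspU (hu : u ∈ Lab .U M k) (hv : v ∈ Lab .U M k) (hr : rem u = ∅) (hr' : rem v = ∅) : u = v := by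
  obtain ⟨a, b, rfl⟩ := exists_tw hr
  obtain ⟨a', b', rfl⟩ := exists_tw hr'
  obtain ⟨h1, h2, -⟩ := mem_Lab.1 hu
  obtain ⟨h3, h4, -⟩ := mem_Lab.1 hv
  rw [card_tw] at h1 h3
  have h5 := sum_U a b
  have h6 := sum_U a' b'
  have h7 : ((a : ℤ) - a') * (2 * (a - b') - 1) = 0 := by
    have e1 : (b : ℤ) = a' + b' - a := by omega
    have e2 : (a : ℤ) * a + b * b - a = a' * a' + b' * b' - a' := by omega
    rw [e1] at e2
    linear_combination e2
  obtain rfl : a = a' := by rcases mul_eq_zero.1 h7 with e | e <;> (clear * - h1 h2 h3 h4 h5 h6 e; omega)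
  obtain rfl : b = b' := by (clear * - h1 h2 h5 h3; omega)
  rfl

namespace Cu

theorem ps_lt (κ : Kn) {x y : ℕ} (c : Bool) : ps κ (x, c) < ps κ (y, c) ↔ x < y := by cases κ <;> simp only [ps, add_lt_add_iff_right, Order.lt_two_iff, zero_le, mul_lt_mul_iff_right₀]

theorem mk_snd (hκ : κ ≠ .A) {l : ℕ} (hl : κ = .U → l % 2 = 1) {z : Pt} (h : l ≤ ps κ z) : (mk κ (l, -1) z).2 = !z.2 := by
  obtain ⟨x, d⟩ := z
  cases κ
  · exact absurd rfl hκ
  · have := hl rfl
    cases d <;> simp only [ps, Bool.toNat_false, add_zero, mk, Bool.not_false, decide_eq_true_eq, Bool.toNat_true, Bool.not_true] at h ⊢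
    · (clear * - this h; omega)
    · exact decide_eq_false (by (clear * - this h; omega))
  · rfl
  · rfl

/-- the top bead of the long row moves into the lowest gap of the other row -/
theorem step (hκ : κ ≠ .A) {c : Bool} {a b l : ℕ} (h : ps κ (a, c) = ps κ (b, !c) + l) (h0 : 0 < l) (hM : a + 1 + b = M)
    (s : Multiset Cy) : ∃ e : ℕ, YK κ M ((l, -1) ::ₘ s) (tw c (a + 1) b) = (-1) ^ e * YK κ M s (tw c a (b + 1)) := by
  have hl : κ = .U → l % 2 = 1 := by
    rintro rfl
    cases c <;> simp only [ps, Bool.toNat_false, add_zero, Bool.not_false, Bool.toNat_true, Bool.not_true] at h <;> (clear * - hM h; omega)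
  have h1 : ∀ z, l ≤ ps κ z → ∃ y, mk κ (l, -1) z = (y, !z.2) ∧ ps κ (y, !z.2) + l = ps κ z := fun z hz =>
    ⟨_, Prod.ext rfl (mk_snd hκ hl hz), by rw [← mk_snd hκ hl hz, Prod.mk.eta, ps_mk]; exact Nat.sub_add_cancel hz⟩
  have h2 : mk κ (l, -1) (a, c) = (b, !c) := by
    obtain ⟨y, e1, e2⟩ := h1 (a, c) (by omega)
    have e3 := ps_lt κ (x := y) (y := b) (!c)
    have e4 := ps_lt κ (x := b) (y := y) (!c)
    rw [e1, show y = b by simp only at e2; omega]
  have h3 : {z ∈ tw c (a + 1) b | l ≤ ps κ z ∧ mk κ (l, -1) z ∉ (tw c (a + 1) b).erase z} = {(a, c)} := by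
    refine eq_singleton_iff_unique_mem.2 ⟨mem_filter.2 ⟨by simp only [mem_tw, ↓reduceIte, lt_add_iff_pos_right, Order.lt_one_iff], by omega, by simp only [h2, mem_erase, ne_eq, Prod.mk.injEq, Bool.not_eq_eq_eq_not, Bool.eq_not_self, and_false, not_false_eq_true, mem_tw, ↓reduceIte, lt_self_iff_false]⟩, ?_⟩
    rintro ⟨x, d⟩ hz
    obtain ⟨e1, e2, e3⟩ := mem_filter.1 hz
    obtain ⟨y, e4, e5⟩ := h1 _ e2
    rw [e4, mem_erase, mem_tw, and_iff_right (by simp)] at e3
    rw [mem_tw] at e1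
    by_cases e : d = c
    · subst e
      have e6 := ps_lt κ (x := y) (y := b) (!d)
      have e7 := ps_lt κ (x := x) (y := a) d
      simp only [↓reduceIte, Order.lt_add_one_iff, Bool.not_eq_eq_eq_not, Bool.eq_not_self, not_lt] at e1 e3 e5
      rw [show x = a by omega]
    · obtain rfl : c = !d := by cases c <;> cases d <;> simp at e ⊢
      have e6 := ps_lt κ (x := a) (y := y) (!d)
      have e7 := ps_lt κ (x := x) (y := b) d
      simp only [Bool.eq_not_self, ↓reduceIte, Order.lt_add_one_iff, not_le, Bool.not_not] at e1 e3 e5 h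
      omega
  have h4 : rp (tw c (a + 1) b) (a, c) (b, !c) = tw c a (b + 1) := by
    ext ⟨x, d⟩
    cases c <;> cases d <;> simp only [rp, Bool.not_false, mem_insert, Prod.mk.injEq, Bool.false_eq_true, and_false, mem_erase, ne_eq, and_true, mem_tw, ↓reduceIte, Order.lt_add_one_iff, false_or, Bool.true_eq_false, not_false_eq_true, true_and, Bool.not_true] <;> (clear * - hM; omega)
  rw [YK_cons κ _ s (card_tw.trans hM), h3, sum_singleton, h2, h4]
  exact ⟨_, rfl⟩

theorem ok_mono {j : ℕ} (h : Ok κ M k) (hj : j ≤ k) : Ok κ M j := by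
  cases κ
  · exact hj.trans h
  · exact hj.trans h
  · exact ⟨h.1, hj.trans h.2⟩
  · exact ⟨h.1, hj.trans h.2⟩

theorem exists_step (hu : u ∈ Lab κ M k) (hr : rem u = ∅) (hk : k ≠ 0) :
    ∃ c a b l, u = tw c (a + 1) b ∧ ps κ (a, c) = ps κ (b, !c) + l ∧ 0 < l := by
  by_contra hn
  have hA : κ ≠ .A := by
    rintro rfl
    exact hk (cuspA hu hr)
  obtain ⟨a, b, rfl⟩ := exists_tw hr
  obtain ⟨h1, h2, -⟩ := mem_Lab.1 hu
  rw [card_tw] at h1
  have h3 : ∀ c a' b', tw false a b = tw c (a' + 1) b' → ps κ (a', c) ≤ ps κ (b', !c) := fun c a' b' e =>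
    by_contra fun h => hn ⟨c, a', b', ps κ (a', c) - ps κ (b', !c), e, by omega, by omega⟩
  have h4 : ∀ a', a = a' + 1 → ps κ (a', false) ≤ ps κ (b, true) := fun a' e => h3 false a' b (by rw [e])
  have h5 : ∀ b', b = b' + 1 → ps κ (b', true) ≤ ps κ (a, false) := fun b' e => h3 true b' a (by rw [e]; exact (tw_not true _ _))
  have hB : κ = .B ∨ κ = .D → False := fun hκ => by
    simp only [sum_tw, ps_B hκ] at h2 h4 h5
    have h6 := h4 (a - 1)
    have h7 := h5 (b - 1)
    obtain rfl | rfl | rfl : a = b ∨ a = b + 1 ∨ b = a + 1 := by (clear * - h1 h6 h7; omega)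
    · exact hk (rank_B (r := 0) hκ (by (clear * - h1; omega)) h2)
    · exact hk (rank_B (r := 1) hκ (by omega) h2)
    · exact hk (rank_B (r := 1) hκ (by omega) ((add_comm _ _).trans h2))
  cases κ
  · exact hA rfl
  · have h6 := h4 (a - 1)
    have h7 := h5 (b - 1)
    have h8 := sum_U a b
    have h9 := bs_A (Or.inr rfl) M
    simp only [ps, Bool.toNat_false, Bool.toNat_true] at h6 h7
    subst h1
    obtain rfl | rfl : a = b ∨ a = b + 1 := by (clear * - h6 h7 h8 h2 h9; omega)
    · have : (a + a) * (a + a) = 4 * (a * a) := by ring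
      (clear * - hk h6 h7 h8 h2 h9 this; omega)
    · have : (b + 1 + b) * (b + 1 + b) + 1 = 2 * ((b + 1) * (b + 1) + b * b) := by ring
      (clear * - hk h6 h7 h8 h2 h9 this; omega)
  · exact hB (Or.inl rfl)
  · exact hB (Or.inr rfl)

theorem unit_ty (hZ : BZero) : ∀ k u, Ok κ M k → u ∈ Lab κ M k → rem u = ∅ →
    ∃ s : Multiset Cy, (∀ c ∈ s, 0 < c.1) ∧ k = (s.map Prod.fst).sum ∧ (YK κ M s u = 1 ∨ YK κ M s u = -1) := by
  intro k
  induction k using Nat.strong_induction_on with
  | _ k ih =>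
    intro u ho hu hr
    by_cases hk : k = 0
    · subst hk
      exact ⟨0, by simp, rfl, hZ.zero κ M u ho hu⟩
    have hA : κ ≠ .A := by
      rintro rfl
      exact hk (cuspA hu hr)
    obtain ⟨c, a, b, l, rfl, h1, h2⟩ := exists_step hu hr hk
    obtain ⟨h3, h4, -⟩ := mem_Lab.1 hu
    rw [card_tw] at h3
    have h5 : #(tw c a (b + 1)) = M := card_tw.trans (by omega)
    have h6 := bs_le (κ := κ) h5 fun e => absurd e hA
    have h7 : ∑ z ∈ tw c a (b + 1), ps κ z + l = k + bs κ M := by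
      rw [← h4, sum_tw, sum_tw, sum_range_succ, sum_range_succ]
      omega
    obtain ⟨s, e1, e2, e3⟩ := ih (k - l) (by omega) _ (ok_mono ho (by omega))
      (mem_Lab.2 ⟨h5, by omega, fun e => absurd e hA⟩) rem_tw
    obtain ⟨e, he⟩ := step hA h1 h2 h3 s
    refine ⟨(l, -1) ::ₘ s, Multiset.forall_mem_cons.2 ⟨h2, e1⟩, by simp only [Multiset.map_cons, Multiset.sum_cons]; (clear * - h6 h7 e2 e3; omega), ?_⟩
    rw [he]
    rcases neg_one_pow_eq_or ℤ e with e4 | e4 <;> rcases e3 with e3 | e3 <;> simp only [Int.reduceNeg, e4, e3, mul_one, reduceCtorEq, or_false, mul_neg, or_true, neg_neg]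

theorem exists_Gp (κ : Kn) {n : ℕ} {T : Finset (Fin n)} {g : SG n} (hg : g ∈ On T) :
    ∃ g' ∈ Gp κ T, ∀ M u, Y κ M T u g' = Y κ M T u g := by
  have h : (⟨g.π, 1⟩ : SG n) ∈ On T ⊓ Ps n := ⟨fun j hj => ⟨(hg j hj).1, rfl⟩, rfl⟩
  cases κ
  · exact ⟨_, h, fun _ _ => by simp only [Y, YK, sty_fst T g]⟩
  · exact ⟨_, h, fun _ _ => by simp only [Y, YK, sty_fst T g]⟩
  · exact ⟨g, hg, fun _ _ => rfl⟩
  · exact ⟨g, hg, fun _ _ => rfl⟩

end Cu

/-- the function of a label without boxes has a value `± 1` -/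
theorem unit (hZ : BZero) {n : ℕ} {T : Finset (Fin n)} (ho : Ok κ M #T) (hu : u ∈ Lab κ M #T) (hr : rem u = ∅) :
    ∃ g ∈ Gp κ T, Y κ M T u g = 1 ∨ Y κ M T u g = -1 := by
  obtain ⟨s, h1, h2, h3⟩ := unit_ty hZ _ u ho hu hr
  obtain ⟨g, hg, rfl⟩ := exists_sty h1 h2
  obtain ⟨g', h4, h5⟩ := exists_Gp κ hg
  exact ⟨g', h4, by rwa [h5]⟩

end Cfsg.Agent.MO.J
end

-- part: MO/D/G2a
section
/-!
# MO/D, G2: symmetric functions as operators on functions of bead tuples (helper25)

* `act f Φ` : a polynomial lowers the positions; `pp`, `hh`, `ee` : power sums, complete and elementary symmetric functions;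
* `Z_hh` : the mean over the symmetric group; `hL K`, `Sp P` : products of `hh` and their spans; `ee_mem`, `ee_odd`;
* `Sp.alt` : these operators keep alternating functions.
-/

set_option autoImplicit false
set_option linter.unusedSectionVars false

namespace Cfsg.Agent.MO.D.G2

open Equiv Finset Cfsg.Agent.H614 Cfsg.Agent.MO.J MvPolynomial

variable {M : ℕ}

/-- functions of tuples -/
abbrev Fn (M : ℕ) : Type := (Fin M → Pt) → ℤ

/-- polynomials -/
abbrev Po (M : ℕ) : Type := MvPolynomial (Fin M) ℤ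

/-- the tuple lowered by `d` -/
def lw (τ : Fin M → Pt) (d : Fin M →₀ ℕ) : Fin M → Pt := fun j => ((τ j).1 - d j, (τ j).2)

/-- the shift -/
def sh (d : Fin M →₀ ℕ) : Module.End ℤ (Fn M) where
  toFun Φ τ := if ∀ j, d j ≤ (τ j).1 then Φ (lw τ d) else 0
  map_add' Φ Ψ := _root_.funext fun τ => by simp only [Pi.add_apply]; split_ifs <;> simp
  map_smul' c Φ := _root_.funext fun τ => by simp only [Pi.smul_apply]; split_ifs <;> simp

theorem sh_apply (d : Fin M →₀ ℕ) (Φ : Fn M) (τ : Fin M → Pt) :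
    sh d Φ τ = if ∀ j, d j ≤ (τ j).1 then Φ (lw τ d) else 0 := rfl

theorem sh_zero : sh (0 : Fin M →₀ ℕ) = 1 := LinearMap.ext fun Φ => _root_.funext fun τ => by
  exact if_pos fun _ => Nat.zero_le _

theorem sh_add (d e : Fin M →₀ ℕ) : sh (d + e) = sh d * sh e := LinearMap.ext fun Φ => _root_.funext fun τ => by
  rw [Module.End.mul_apply, sh_apply, sh_apply, sh_apply]
  have h1 : lw (lw τ d) e = lw τ (d + e) := _root_.funext fun j => by simp only [lw, Nat.sub_sub, _root_.Finsupp.coe_add, _root_.Pi.add_apply]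
  rw [h1, ← ite_and]
  refine if_congr ⟨fun h => ⟨fun j => ?_, fun j => ?_⟩, fun h j => ?_⟩ rfl rfl
  · exact le_trans (Nat.le_add_right _ _) (h j)
  · exact Nat.le_sub_of_add_le' (h j)
  · exact Nat.add_le_of_le_sub' (h.1 j) (h.2 j)

/-- the action of the polynomials -/
noncomputable def act : Po M →ₐ[ℤ] Module.End ℤ (Fn M) :=
  AddMonoidAlgebra.lift ℤ _ _ ⟨⟨fun d => sh d.toAdd, sh_zero⟩, fun d e => sh_add d.toAdd e.toAdd⟩

theorem act_mon (d : Fin M →₀ ℕ) : act (monomial d 1) = sh d :=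
  (AddMonoidAlgebra.lift_single _ _ _).trans (one_smul _ _)

theorem act_mul (f g : Po M) (Φ : Fn M) : act (f * g) Φ = act f (act g Φ) := by rw [map_mul]; rfl

/-- power sums -/
noncomputable def pp (r : ℕ) : Po M := ∑ j, monomial (Finsupp.single j r) 1

/-- complete symmetric functions -/
noncomputable def hh (k : ℕ) : Po M := ∑ d ∈ finsuppAntidiag univ k, monomial d 1

/-- the indicator of a set -/
noncomputable def ind (S : Finset (Fin M)) : Fin M →₀ ℕ := Finsupp.equivFunOnFinite.symm fun j => if j ∈ S then 1 else 0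

theorem ind_apply (S : Finset (Fin M)) (j : Fin M) : ind S j = if j ∈ S then 1 else 0 := rfl

/-- elementary symmetric functions -/
noncomputable def ee (k : ℕ) : Po M := ∑ S ∈ powersetCard k univ, monomial (ind S) 1

theorem act_pp (r : ℕ) (Φ : Fn M) (τ : Fin M → Pt) :
    act (pp r) Φ τ = ∑ j, if r ≤ (τ j).1 then Φ (J.dn τ j (r, 1)) else 0 := by
  rw [pp, map_sum, LinearMap.sum_apply, Finset.sum_apply]
  refine sum_congr rfl fun j _ => ?_
  rw [act_mon, sh_apply]
  refine if_congr ⟨fun h => by simpa using h j, fun h i => ?_⟩ (congrArg Φ (_root_.funext fun i => ?_)) rfl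
  · by_cases e : i = j
    · simpa [e] using h
    · simp [e]
  · by_cases e : i = j
    · simp [e, lw, J.dn_self, mv, fl]
    · simp [e, lw, J.dn_ne]

theorem YM_pos (ν : Multiset ℕ) (s : Multiset Cy) :
    YM (M := M) (ν.map (fun r => (r, 1)) + s) = act (ν.map pp).prod (YM s) := by
  induction ν using Multiset.induction_on with
  | empty => simp
  | cons r ν ih =>
    funext τ
    rw [Multiset.map_cons, Multiset.cons_add, YM_cons, Multiset.map_cons, Multiset.prod_cons, act_mul, act_pp, ih]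

theorem coeff_hh (k : ℕ) (d : Fin M →₀ ℕ) : coeff d (hh k) = if ∑ j, d j = k then 1 else 0 := by
  simp only [hh, coeff_sum, coeff_monomial, sum_ite_eq', mem_finsuppAntidiag, subset_univ, and_true]

theorem hh_zero : hh (M := M) 0 = 1 := by simp only [hh, _root_.Finset.finsuppAntidiag_zero, _root_.Finset.sum_singleton, _root_.MvPolynomial.monomial_zero', _root_.eq_intCast, _root_.Int.cast_one]

theorem sum_sub {d e : Fin M →₀ ℕ} (h : e ≤ d) : ∑ j, (d - e) j + ∑ j, e j = ∑ j, d j := by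
  rw [← sum_add_distrib]
  exact sum_congr rfl fun j _ => Nat.sub_add_cancel (h j)

theorem hh_rec (k : ℕ) : (k : Po M) * hh k = ∑ r ∈ Icc 1 k, pp r * hh (k - r) := by
  ext d
  rw [← nsmul_eq_mul, coeff_smul, coeff_hh]
  simp only [pp, sum_mul, coeff_sum, coeff_monomial_mul', coeff_hh, one_mul]
  rw [sum_comm]
  by_cases h : ∑ j, d j = k
  · rw [if_pos h, nsmul_eq_mul, mul_one, ← h, Nat.cast_sum]
    refine sum_congr rfl fun j _ => ?_
    have h1 : d j ≤ ∑ j, d j := single_le_sum (f := fun j => d j) (fun _ _ => Nat.zero_le _) (mem_univ j)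
    rw [sum_congr rfl (g := fun r => if r ≤ d j then 1 else 0) fun r _ => ?_, ← sum_filter, sum_const,
      show (Icc 1 (∑ j, d j)).filter (· ≤ d j) = Icc 1 (d j) by ext r; simp only [_root_.Finset.mem_filter, _root_.Finset.mem_Icc, _root_.and_congr_left_iff, _root_.and_iff_left_iff_imp]; omega]
    · simp only [_root_.Nat.card_Icc, _root_.add_tsub_cancel_right, _root_.Int.nsmul_eq_mul, _root_.mul_one]
    · refine if_ctx_congr Finsupp.single_le_iff (fun h2 => if_pos ?_) fun _ => rfl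
      have h3 := sum_sub (Finsupp.single_le_iff.2 h2)
      rw [show ∑ i, Finsupp.single j r i = r by simp only [Finsupp.single_apply, _root_.Finset.sum_ite_eq, _root_.Finset.mem_univ, ↓ _root_.reduceIte]] at h3
      omega
  · rw [if_neg h, smul_zero]
    refine (sum_eq_zero fun j _ => sum_eq_zero fun r hr => ?_).symm
    split_ifs with h1 h2
    · have h3 := sum_sub h1
      rw [show ∑ i, Finsupp.single j r i = r by simp only [Finsupp.single_apply, _root_.Finset.sum_ite_eq, _root_.Finset.mem_univ, ↓ _root_.reduceIte]] at h3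
      have := mem_Icc.1 hr
      omega
    all_goals rfl

theorem sum_ind (S : Finset (Fin M)) : ∑ j, ind S j = #S := by simp only [ind_apply, _root_.Finset.sum_ite_mem, _root_.Finset.univ_inter, _root_.Finset.sum_const, _root_.smul_eq_mul, _root_.mul_one]

theorem ind_le {S : Finset (Fin M)} {d : Fin M →₀ ℕ} : ind S ≤ d ↔ S ⊆ d.support := by
  refine ⟨fun h j hj => ?_, fun h j => ?_⟩
  · have := h j
    rw [ind_apply, if_pos hj] at this
    exact Finsupp.mem_support_iff.2 (by omega)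
  · rw [ind_apply]
    split_ifs with e
    · exact Nat.one_le_iff_ne_zero.2 (Finsupp.mem_support_iff.1 (h e))
    · exact Nat.zero_le _

theorem ee_zero : ee (M := M) 0 = 1 := by
  rw [ee, powersetCard_zero, sum_singleton, show ind (∅ : Finset (Fin M)) = 0 from Finsupp.ext fun _ => rfl]
  rfl

theorem ee_hh {k : ℕ} (hk : 0 < k) : ∑ i ∈ range (k + 1), (-1 : Po M) ^ i * (ee i * hh (k - i)) = 0 := by
  ext d
  have h0 : ∀ i ∈ range (k + 1), coeff d ((-1 : Po M) ^ i * (ee i * hh (k - i))) =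
      ∑ S ∈ powersetCard i d.support, if ∑ j, d j = k then (-1 : ℤ) ^ #S else 0 := fun i hi => by
    rw [show (-1 : Po M) ^ i = C ((-1) ^ i) by simp only [_root_.Int.reduceNeg, _root_.eq_intCast, _root_.Int.cast_pow, _root_.Int.cast_neg, _root_.Int.cast_one], coeff_C_mul]
    simp only [ee, sum_mul, coeff_sum, coeff_monomial_mul', coeff_hh, one_mul, ind_le]
    rw [← sum_filter, mul_sum]
    refine sum_congr (by ext S; simp only [and_comm, _root_.Finset.mem_filter, _root_.Finset.mem_powersetCard, _root_.Finset.subset_univ, _root_.true_and]) fun S hS => ?_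
    obtain ⟨h1, h2⟩ := mem_powersetCard.1 hS
    have h3 := sum_sub (ind_le.2 h1)
    have h4 := mem_range.1 hi
    rw [sum_ind] at h3
    rw [mul_ite, mul_one, mul_zero, h2]
    exact if_congr (by omega) rfl rfl
  rw [coeff_sum, sum_congr rfl h0, coeff_zero]
  by_cases h : ∑ j, d j = k
  · simp only [if_pos h]
    have h1 : #d.support ≤ k := by
      rw [← h, ← sum_ind]
      exact sum_le_sum fun j _ => ind_le.2 subset_rfl j
    rw [← sum_subset (s₁ := range (#d.support + 1)) (range_subset_range.2 (by omega)) fun i _ hi => by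
      rw [powersetCard_eq_empty.2 (by simpa using hi), sum_empty], ← sum_powerset]
    refine sum_powerset_neg_one_pow_card_of_nonempty (nonempty_iff_ne_empty.2 fun e => ?_)
    rw [Finsupp.support_eq_empty.1 e] at h
    simp only [_root_.Finsupp.coe_zero, _root_.Pi.zero_apply, _root_.Finset.sum_const_zero] at h
    omega
  · simp only [h, ↓ _root_.reduceIte, _root_.Finset.sum_const_zero]

/-- **the mean over the symmetric group** -/
theorem Z_hh (Φ : Fn M) (τ : Fin M → Pt) (k : ℕ) (f : Po M) :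
    Z k (fun ν => (act ((ν.map pp).prod * f) Φ τ : ℚ)) = act (hh k * f) Φ τ := by
  induction k using Nat.strong_induction_on generalizing f with
  | _ k ih =>
  rcases k.eq_zero_or_pos with rfl | hk
  · rw [Z_zero_eq, hh_zero]
    simp
  refine mul_left_cancel₀ (Nat.cast_ne_zero.2 hk.ne' : (k : ℚ) ≠ 0) ?_
  rw [Z_rec, sum_congr rfl (g := fun r => (act (pp r * hh (k - r) * f) Φ τ : ℚ)) fun r hr => ?_, ← Int.cast_sum,
    ← Finset.sum_apply, ← LinearMap.sum_apply, ← map_sum, ← sum_mul, ← hh_rec, mul_assoc, ← nsmul_eq_mul, map_nsmul]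
  · simp only [_root_.map_mul, _root_.nsmul_eq_mul, _root_.Module.End.mul_apply, _root_.Module.End.natCast_apply, _root_.Pi.smul_apply, _root_.Int.nsmul_eq_mul, _root_.Int.cast_mul, _root_.Int.cast_natCast]
  · rw [mul_comm (pp r), mul_assoc, ← ih _ (by have := mem_Icc.1 hr; omega)]
    exact congrArg _ (_root_.funext fun ν => by rw [Multiset.map_cons, Multiset.prod_cons, mul_comm (pp r), mul_assoc])

/-- products of complete symmetric functions -/
noncomputable def hL (K : List ℕ) : Po M := (K.map hh).prod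

theorem hL_append (K K' : List ℕ) : hL (M := M) (K ++ K') = hL K * hL K' := by simp [hL]

/-- their spans -/
noncomputable def Sp (P : List ℕ → Prop) : AddSubgroup (Po M) := AddSubgroup.closure {f | ∃ K, P K ∧ f = hL K}

theorem Sp.mul {P Q R : List ℕ → Prop} (h : ∀ K K', P K → Q K' → R (K ++ K')) {f g : Po M} (hf : f ∈ Sp P) (hg : g ∈ Sp Q) :
    f * g ∈ Sp R := by
  induction hf using AddSubgroup.closure_induction with
  | mem f hf =>
    obtain ⟨K, h1, rfl⟩ := hf
    induction hg using AddSubgroup.closure_induction with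
    | mem g hg =>
      obtain ⟨K', h2, rfl⟩ := hg
      exact AddSubgroup.subset_closure ⟨_, h _ _ h1 h2, (hL_append _ _).symm⟩
    | zero => rw [mul_zero]; exact zero_mem _
    | add _ _ _ _ h1 h2 => rw [mul_add]; exact add_mem h1 h2
    | neg _ _ h1 => rw [mul_neg]; exact neg_mem h1
  | zero => rw [zero_mul]; exact zero_mem _
  | add _ _ _ _ h1 h2 => rw [add_mul]; exact add_mem h1 h2
  | neg _ _ h1 => rw [neg_mul]; exact neg_mem h1

theorem Sp.ex {P : List ℕ → Prop} {f : Po M} (hf : f ∈ Sp P) {t : ℤ} {Φ : Fn M} {τ : Fin M → Pt} (h : ¬ t ∣ act f Φ τ) :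
    ∃ K, P K ∧ ¬ t ∣ act (hL K) Φ τ := by
  by_contra hc
  push Not at hc
  refine h ?_
  clear h
  induction hf using AddSubgroup.closure_induction with
  | mem f hf =>
    obtain ⟨K, h1, rfl⟩ := hf
    exact hc K h1
  | zero => simp
  | add _ _ _ _ h1 h2 => rw [map_add]; exact dvd_add h1 h2
  | neg _ _ h1 => rw [map_neg]; exact dvd_neg.2 h1

theorem hh_mem {P : List ℕ → Prop} {k : ℕ} (h : P [k]) : hh (M := M) k ∈ Sp P :=
  AddSubgroup.subset_closure ⟨_, h, by simp [hL]⟩

theorem ee_mem (k : ℕ) : ee (M := M) k ∈ Sp fun K => K.sum = k := by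
  induction k using Nat.strong_induction_on with
  | _ k ih =>
  rcases k.eq_zero_or_pos with rfl | hk
  · exact AddSubgroup.subset_closure ⟨[], rfl, ee_zero⟩
  have h1 := ee_hh (M := M) hk
  rw [sum_range_succ, Nat.sub_self, hh_zero, mul_one, add_eq_zero_iff_neg_eq] at h1
  have h2 : ∀ (i : ℕ) (f : Po M), f ∈ Sp (fun K => K.sum = k) → (-1) ^ i * f ∈ Sp fun K => K.sum = k := fun i f hf => by
    rcases neg_one_pow_eq_or (Po M) i with e | e <;> simpa [e] using hf
  have h3 := h2 k _ (h1 ▸ neg_mem (sum_mem fun i hi => h2 i _ (Sp.mul (Q := fun K => K.sum = k - i) (fun K K' e e' => by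
    have := mem_range.1 hi
    rw [List.sum_append]
    omega) (ih i (mem_range.1 hi)) (hh_mem (by simp)))))
  rwa [← mul_assoc, ← mul_pow, neg_one_mul, neg_neg, one_pow, one_mul] at h3

theorem Sp.mono {P Q : List ℕ → Prop} (h : ∀ K, P K → Q K) : Sp (M := M) P ≤ Sp Q :=
  AddSubgroup.closure_mono fun _ ⟨K, h1, h2⟩ => ⟨K, h K h1, h2⟩

/-- some entry is odd -/
def Od (K : List ℕ) : Prop := ∃ k ∈ K, Odd k

theorem od_of_sum : ∀ K : List ℕ, Odd K.sum → Od K
  | [], h => by simp at h
  | k :: K, h => by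
    rcases Nat.even_or_odd k with e | e
    · obtain ⟨x, h1, h2⟩ := od_of_sum K (by rw [List.sum_cons, Nat.odd_add'] at h; exact h.2 e)
      exact ⟨x, List.mem_cons_of_mem _ h1, h2⟩
    · exact ⟨k, List.mem_cons_self, e⟩

theorem ee_odd {k : ℕ} (h : Odd k) : ee (M := M) k ∈ Sp Od := Sp.mono (fun K (e : K.sum = k) => od_of_sum K (e ▸ h)) (ee_mem k)

theorem ee_all (k : ℕ) : ee (M := M) k ∈ Sp fun _ => True := Sp.mono (fun _ _ => trivial) (ee_mem k)

theorem alt_hh (k : ℕ) {Φ : Fn M} (h : AltT Φ) : AltT (act (hh k) Φ) := by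
  induction k using Nat.strong_induction_on with
  | _ k ih =>
  rcases k.eq_zero_or_pos with rfl | hk
  · rw [hh_zero, map_one]
    exact h
  intro σ τ
  refine mul_left_cancel₀ (Nat.cast_ne_zero.2 hk.ne' : (k : ℤ) ≠ 0) ?_
  have h1 : ∀ τ, (k : ℤ) * act (hh k) Φ τ = ∑ r ∈ Icc 1 k, act (pp r) (act (hh (k - r)) Φ) τ := fun τ => by
    simp only [← act_mul]
    rw [← Finset.sum_apply, ← LinearMap.sum_apply, ← map_sum, ← hh_rec, ← nsmul_eq_mul k (hh k), map_nsmul]
    simp only [_root_.nsmul_eq_mul, _root_.Module.End.mul_apply, _root_.Module.End.natCast_apply, _root_.Pi.smul_apply, _root_.Int.nsmul_eq_mul]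
  rw [smul_eq_mul, mul_left_comm, h1, h1, mul_sum]
  refine sum_congr rfl fun r hr => ?_
  rw [act_pp, act_pp]
  exact (ih _ (by have := mem_Icc.1 hr; omega)).move' (fun a => r ≤ a.1) (mv (r, 1)) σ τ

theorem Sp.alt {P : List ℕ → Prop} {f : Po M} (hf : f ∈ Sp P) {Φ : Fn M} (h : AltT Φ) : AltT (act f Φ) := by
  induction hf using AddSubgroup.closure_induction with
  | mem f hf =>
    obtain ⟨K, -, rfl⟩ := hf
    induction K with
    | nil => simpa [hL] using h
    | cons k K ih =>
      rw [show hL (k :: K) = hh k * hL K by simp [hL], act_mul]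
      exact alt_hh k ih
  | zero => intro σ τ; simp
  | add _ _ _ _ h1 h2 => intro σ τ; rw [map_add, LinearMap.add_apply, Pi.add_apply, h1, h2, Pi.add_apply, smul_add]
  | neg _ _ h1 => intro σ τ; rw [map_neg, LinearMap.neg_apply, Pi.neg_apply, h1, Pi.neg_apply, smul_neg]

end Cfsg.Agent.MO.D.G2
end

private theorem dce_55b5ccedd6d5 : _root_.True := by
  try have : _root_.True := by simp only [_root_.Cfsg.Agent.MO.J.bc.eq_2]
  try have : _root_.True := by simp only [_root_.Cfsg.Agent.MO.J.Pars.ws.eq_1]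
  try have : _root_.True := by simp only [_root_.Cfsg.Agent.MO.J.sn.eq_1]
  try have : _root_.True := by simp only [_root_.Cfsg.Agent.MO.J.Cu.tw.eq_1]
  try have : _root_.True := by simp only [_root_.Cfsg.Agent.MO.J.bc.eq_1]
  try have : _root_.True := by simp only [_root_.Cfsg.Agent.MO.J.fl.eq_1]
  try have : _root_.True := by simp only [_root_.Cfsg.Agent.MO.D.G2.hL.eq_1]
  try have : _root_.True := by simp only [_root_.Cfsg.Agent.MO.J.YK.eq_2]
  try have : _root_.True := by simp only [_root_.Cfsg.Agent.MO.J.rp.eq_1]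
  try have : _root_.True := by simp only [_root_.Cfsg.Agent.MO.J.mk.eq_2]
  try have : _root_.True := by simp only [_root_.Cfsg.Agent.MO.J.YK.eq_3]
  try have : _root_.True := by simp only [_root_.Cfsg.Agent.MO.J.Pars.uv.eq_1]
  try have : _root_.True := by simp only [_root_.Cfsg.Agent.MO.D.G2.pp.eq_1]
  try have : _root_.True := by simp only [_root_.Cfsg.Agent.MO.J.YT._sparseCasesOn_1.else_eq]
  try have : _root_.True := by simp only [_root_.Cfsg.Agent.MO.J.Lab.eq_1]
  try have : _root_.True := by simp only [_root_.Cfsg.Agent.MO.J.vc.eq_1]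
  try have : _root_.True := by simp only [_root_.Cfsg.Agent.MO.J.sty.eq_1]
  try have : _root_.True := by simp only [_root_.Cfsg.Agent.MO.D.G2.lw.eq_1]
  try have : _root_.True := by simp only [_root_.Cfsg.Agent.MO.J.wb.eq_1]
  try have : _root_.True := by simp only [_root_.Cfsg.Agent.MO.D.G2.hh.eq_1]
  try have : _root_.True := by simp only [_root_.Cfsg.Agent.MO.J.wb.eq_2]
  try have : _root_.True := by simp only [_root_.Cfsg.Agent.MO.D.G2.ee.eq_1]
  try have : _root_.True := by simp only [_root_.Cfsg.Agent.MO.J.ky.eq_1]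
  try have : _root_.True := by simp only [_root_.Cfsg.Agent.MO.J.pr.eq_1]
  try have : _root_.True := by simp only [_root_.Cfsg.Agent.MO.J.mk.eq_1]
  try have : _root_.True := by simp only [_root_.Cfsg.Agent.MO.J.sgn2.eq_1]
  try have : _root_.True := by simp only [_root_.Cfsg.Agent.MO.J.wb._sparseCasesOn_1.else_eq]
  try have : _root_.True := by simp only [_root_.Cfsg.Agent.MO.J.YK.eq_1]
  try have : _root_.True := by simp only [_root_.Cfsg.Agent.MO.J.wp._sparseCasesOn_1.else_eq]
  try have : _root_.True := by simp only [_root_.Cfsg.Agent.MO.J.pr.congr_simp]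
  try have : _root_.True := by simp only [_root_.Cfsg.Agent.MO.J.v0.eq_1]
  try have : _root_.True := by simp only [_root_.Cfsg.Agent.MO.J.ux.eq_1]
  try have : _root_.True := by simp only [_root_.Cfsg.Agent.MO.J.v1.eq_1]
  try have : _root_.True := by simp only [_root_.Cfsg.Agent.MO.J.YT.eq_3]
  try have : _root_.True := by simp only [_root_.Cfsg.Agent.MO.J.mk.eq_3]
  try have : _root_.True := by simp only [_root_.Cfsg.Agent.MO.J.Pars.PL.eq_1]
  try have : _root_.True := by simp only [_root_.Cfsg.Agent.MO.J.YT.eq_2]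
  try have : _root_.True := by simp only [_root_.Cfsg.Agent.MO.J.wp.eq_2]
  try have : _root_.True := by simp only [_root_.Cfsg.Agent.MO.J.YT.eq_1]
  try have : _root_.True := by simp only [_root_.Cfsg.Agent.MO.J.bx.eq_1]
  try have : _root_.True := by simp only [_root_.Cfsg.Agent.MO.J.Y.eq_1]
  try have : _root_.True := by simp only [_root_.Cfsg.Agent.MO.J.wp.eq_1]
  exact _root_.True.intro
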